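import Mathlib
import Cfsg.Agent.H951.Lin
import Cfsg.Agent.H469.IrrCyc
set_option linter.all false

-- part: H204/Glue
section
/-!
# Gluing endomorphisms along an orthogonal decomposition (helper204)

`B` a bilinear form on `V`; elementary predicates `Sy B` (symmetric), `Nd B` (nondegenerate on the left),
`Smi B c g` : `B (g u) (g v) = c * B u v`. `glue h a b` : the endomorphism of `V = X ⊕ Y` which is `a` on
`X` and `b` on `Y`.
-/

set_option autoImplicit false

namespace Cfsg.Agent.H204

open Module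

variable {F V : Type*} [Field F] [AddCommGroup V] [Module F V]

/-- symmetric -/
def Sy (B : LinearMap.BilinForm F V) : Prop := ∀ u v, B u v = B v u

/-- nondegenerate -/
def Nd (B : LinearMap.BilinForm F V) : Prop := ∀ u, (∀ v, B u v = 0) → u = 0

/-- `g` multiplies `B` by `c` -/
def Smi (B : LinearMap.BilinForm F V) (c : F) (g : V →ₗ[F] V) : Prop :=
  ∀ u v, B (g u) (g v) = c * B u v

/-- the orthogonal space -/
def perp (B : LinearMap.BilinForm F V) (X : Submodule F V) : Submodule F V := B.orthogonal X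

variable {B : LinearMap.BilinForm F V}

theorem mem_perp {X : Submodule F V} {v : V} : v ∈ perp B X ↔ ∀ x ∈ X, B x v = 0 := Iff.rfl

theorem Sy.restrict (hs : Sy B) (X : Submodule F V) : Sy (B.restrict X) := fun u v => hs u v

theorem Sy.isSymm (hs : Sy B) : B.IsSymm := ⟨hs⟩

theorem nondegenerate_of (hs : Sy B) (hn : Nd B) : B.Nondegenerate :=
  ⟨fun u hu => hn u hu, fun u hu => hn u fun v => by rw [hs]; exact hu v⟩

theorem isCompl_perp [FiniteDimensional F V] (hs : Sy B) {X : Submodule F V} (h : Nd (B.restrict X)) :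
    IsCompl X (perp B X) :=
  LinearMap.BilinForm.isCompl_orthogonal_of_restrict_nondegenerate hs.isSymm.isRefl
    (nondegenerate_of (hs.restrict X) h)

theorem nd_restrict_of_isCompl (hn : Nd B) {X : Submodule F V}
    (h : X ⊔ perp B X = ⊤) : Nd (B.restrict X) := by
  intro u hu
  apply Subtype.ext
  refine hn u fun v => ?_
  have hv : v ∈ X ⊔ perp B X := by rw [h]; exact Submodule.mem_top
  obtain ⟨x, hx, y, hy, rfl⟩ := Submodule.mem_sup.1 hv
  rw [map_add, mem_perp.1 hy u u.2, add_zero]
  exact hu ⟨x, hx⟩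

theorem nd_restrict_perp (hs : Sy B) (hn : Nd B) {X : Submodule F V}
    (h : X ⊔ perp B X = ⊤) : Nd (B.restrict (perp B X)) := by
  intro u hu
  apply Subtype.ext
  refine hn u fun v => ?_
  have hv : v ∈ X ⊔ perp B X := by rw [h]; exact Submodule.mem_top
  obtain ⟨x, hx, y, hy, rfl⟩ := Submodule.mem_sup.1 hv
  rw [map_add, hs (u : V) x, mem_perp.1 u.2 x hx, zero_add]
  exact hu ⟨y, hy⟩

/-- The endomorphism of `V = X ⊕ Y` which is `a` on `X` and `b` on `Y`. -/
noncomputable def glue {X Y : Submodule F V} (h : IsCompl X Y) (a : X →ₗ[F] X) (b : Y →ₗ[F] Y) :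
    V →ₗ[F] V :=
  (Submodule.prodEquivOfIsCompl X Y h).toLinearMap ∘ₗ (a.prodMap b) ∘ₗ
    (Submodule.prodEquivOfIsCompl X Y h).symm.toLinearMap

theorem glue_add {X Y : Submodule F V} (h : IsCompl X Y) (a : X →ₗ[F] X) (b : Y →ₗ[F] Y)
    (x : X) (y : Y) : glue h a b (x + y) = a x + b y := by
  have h1 : (Submodule.prodEquivOfIsCompl X Y h).symm ((x : V) + y) = (x, y) := by
    rw [LinearEquiv.symm_apply_eq]
    rfl
  rw [glue, LinearMap.comp_apply, LinearMap.comp_apply]
  change (Submodule.prodEquivOfIsCompl X Y h) ((a.prodMap b)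
    ((Submodule.prodEquivOfIsCompl X Y h).symm (↑x + ↑y))) = _
  rw [h1]
  rfl

theorem glue_left {X Y : Submodule F V} (h : IsCompl X Y) (a : X →ₗ[F] X) (b : Y →ₗ[F] Y)
    (x : X) : glue h a b x = a x := by
  have := glue_add h a b x 0
  rwa [Submodule.coe_zero, add_zero, map_zero, Submodule.coe_zero, add_zero] at this

theorem glue_right {X Y : Submodule F V} (h : IsCompl X Y) (a : X →ₗ[F] X) (b : Y →ₗ[F] Y)
    (y : Y) : glue h a b y = b y := by
  have := glue_add h a b 0 y
  rwa [Submodule.coe_zero, zero_add, map_zero, Submodule.coe_zero, zero_add] at this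

theorem det_glue [FiniteDimensional F V] {X Y : Submodule F V} (h : IsCompl X Y) (a : X →ₗ[F] X)
    (b : Y →ₗ[F] Y) : LinearMap.det (glue h a b) = LinearMap.det a * LinearMap.det b := by
  rw [glue]
  rw [LinearMap.det_conj, LinearMap.det_prodMap]

theorem exists_add {X Y : Submodule F V} (h : IsCompl X Y) (v : V) :
    ∃ (x : X) (y : Y), (x : V) + y = v := by
  have hv : v ∈ X ⊔ Y := by rw [h.sup_eq_top]; exact Submodule.mem_top
  obtain ⟨x, hx, y, hy, h⟩ := Submodule.mem_sup.1 hv
  exact ⟨⟨x, hx⟩, ⟨y, hy⟩, h⟩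

theorem smi_glue (hs : Sy B) {X : Submodule F V} (h : IsCompl X (perp B X)) {c : F}
    {a : X →ₗ[F] X} {b : perp B X →ₗ[F] perp B X} (ha : Smi (B.restrict X) c a)
    (hb : Smi (B.restrict (perp B X)) c b) : Smi B c (glue h a b) := by
  intro u v
  obtain ⟨x, y, rfl⟩ := exists_add h u
  obtain ⟨x', y', rfl⟩ := exists_add h v
  have h1 : B (a x) (b y') = 0 := mem_perp.1 (b y').2 _ (a x).2
  have h2 : B (b y) (a x') = 0 := by rw [hs]; exact mem_perp.1 (b y).2 _ (a x').2
  have h3 : B x y' = 0 := mem_perp.1 y'.2 _ x.2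
  have h4 : B y x' = 0 := by rw [hs]; exact mem_perp.1 y.2 _ x'.2
  have h5 : B (a x) (a x') = c * B x x' := ha x x'
  have h6 : B (b y) (b y') = c * B y y' := hb y y'
  rw [glue_add, glue_add]
  simp only [map_add, LinearMap.add_apply]
  rw [h1, h2, h3, h4, h5, h6]
  ring

/-- the restriction of an endomorphism to an invariant subspace -/
def res (s : V →ₗ[F] V) {X : Submodule F V} (h : H951.Inv s X) : X →ₗ[F] X := s.restrict h

theorem coe_res (s : V →ₗ[F] V) {X : Submodule F V} (h : H951.Inv s X) (x : X) :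
    ((res s h x : X) : V) = s x := rfl

theorem commute_glue {s : V →ₗ[F] V} {X Y : Submodule F V} (h : IsCompl X Y) (hX : H951.Inv s X)
    (hY : H951.Inv s Y) {a : X →ₗ[F] X} {b : Y →ₗ[F] Y} (ha : ∀ x, a (res s hX x) = res s hX (a x))
    (hb : ∀ y, b (res s hY y) = res s hY (b y)) (v : V) : glue h a b (s v) = s (glue h a b v) := by
  obtain ⟨x, y, rfl⟩ := exists_add h v
  have h1 : s ((x : V) + y) = (res s hX x : V) + (res s hY y : V) := by
    rw [map_add]; rfl
  rw [h1, glue_add, glue_add, ha, hb, map_add]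
  rfl

/-- the orthogonal space of an invariant subspace is invariant -/
theorem inv_perp [FiniteDimensional F V] {s : V →ₗ[F] V} (hB : Smi B 1 s) (hs : Function.Injective s)
    {X : Submodule F V} (hX : H951.Inv s X) : H951.Inv s (perp B X) := by
  intro y hy
  rw [mem_perp]
  intro x hx
  have h1 : X.map s = X := by
    apply Submodule.eq_of_le_of_finrank_eq (H951.inv_iff_map.1 hX)
    exact (Submodule.equivMapOfInjective s hs X).finrank_eq.symm
  rw [← h1] at hx
  obtain ⟨x', hx', rfl⟩ := hx
  rw [hB, one_mul]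
  exact mem_perp.1 hy x' hx'

end Cfsg.Agent.H204
end

-- part: H204/FieldAct
section
/-!
# The field generated by an irreducible operator (helper204)

`FA s K` : a field `K ⊇ F` acting on `U` by `φ`, `φ ζ = s`, `K = F[ζ]`, `k ↦ φ k u` bijective for `u ≠ 0`.
`exists_fa` : existence for an irreducible `s`.
`det_eq_norm`, `exists_adj`, and for an invariant symmetric nondegenerate form on `U` and `s² ≠ 1`:
`exists_conj` : `B (φ k u) v = B u (φ (k ^ q ^ d) v)` with `|K| = q ^ (2d)`.
-/

set_option autoImplicit false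

namespace Cfsg.Agent.H204

open Module Polynomial

universe u v

variable {F : Type u} {U : Type v} [Field F] [AddCommGroup U] [Module F U]

/-- A field `K` acting on `U`, regular on non-zero vectors, generated by `ζ ↦ s`. -/
structure FA (s : Module.End F U) (K : Type u) [Field K] [Algebra F K] where
  /-- the action -/
  φ : K →ₐ[F] Module.End F U
  /-- the generator -/
  ζ : K
  hζ : φ ζ = s
  bij : ∀ x : U, x ≠ 0 → Function.Bijective fun k => φ k x
  gen : ∀ k : K, ∃ f : F[X], k = aeval ζ f

theorem exists_fa [FiniteDimensional F U] [Nontrivial U] (s : Module.End F U)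
    (hirr : ∀ W : Submodule F U, (∀ w ∈ W, s w ∈ W) → W = ⊥ ∨ W = ⊤) :
    ∃ (K : Type u) (_ : Field K) (_ : Algebra F K), Module.Finite F K ∧ Nonempty (FA s K) := by
  have hp : Irreducible (minpoly F s) := H469.IrrCyc.minpoly_irreducible s hirr
  have : Fact (Irreducible (minpoly F s)) := ⟨hp⟩
  have hI : ∀ a : F[X], a ∈ Ideal.span {minpoly F s} → aeval s a = 0 := by
    intro a ha
    obtain ⟨b, rfl⟩ := Ideal.mem_span_singleton.1 ha
    rw [map_mul, minpoly.aeval, zero_mul]
  let φ : AdjoinRoot (minpoly F s) →ₐ[F] Module.End F U := Ideal.Quotient.liftₐ _ (aeval s) hI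
  have hφ : ∀ f : F[X], φ (AdjoinRoot.mk _ f) = aeval s f := fun f => rfl
  refine ⟨AdjoinRoot (minpoly F s), inferInstance, inferInstance,
    (AdjoinRoot.powerBasis hp.ne_zero).finite, ⟨⟨φ, AdjoinRoot.root _, ?_, ?_, ?_⟩⟩⟩
  · rw [← AdjoinRoot.mk_X, hφ, aeval_X]
  · intro x hx
    constructor
    · intro k k' h
      obtain ⟨f, rfl⟩ := AdjoinRoot.mk_surjective k
      obtain ⟨f', rfl⟩ := AdjoinRoot.mk_surjective k'
      have h1 : aeval s (f - f') x = 0 := by
        rw [map_sub, LinearMap.sub_apply, ← hφ, ← hφ]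
        exact sub_eq_zero.2 h
      have h2 := H469.IrrCyc.aeval_eq_zero s hirr hx h1
      have h3 : minpoly F s ∣ f - f' := minpoly.dvd F s h2
      exact AdjoinRoot.mk_eq_mk.2 h3
    · intro y
      obtain ⟨f, hf⟩ := H469.IrrCyc.orbMap_surjective s hirr hx y
      exact ⟨AdjoinRoot.mk _ f, by rw [← hf]; rfl⟩
  · intro k
    obtain ⟨f, rfl⟩ := AdjoinRoot.mk_surjective k
    exact ⟨f, by rw [AdjoinRoot.aeval_eq]⟩

namespace FA

variable {s : Module.End F U} {K : Type u} [Field K] [Algebra F K] (D : FA s K)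

theorem phi_inj [Nontrivial U] : Function.Injective D.φ := D.φ.toRingHom.injective

/-- `K ≃ U`. -/
noncomputable def eu {x : U} (hx : x ≠ 0) : K ≃ₗ[F] U :=
  LinearEquiv.ofBijective
    { toFun := fun k => D.φ k x
      map_add' := fun a b => by rw [map_add, LinearMap.add_apply]
      map_smul' := fun a b => by rw [map_smul, LinearMap.smul_apply, RingHom.id_apply] } (D.bij x hx)

theorem eu_apply {x : U} (hx : x ≠ 0) (k : K) : D.eu hx k = D.φ k x := rfl

theorem det_eq_norm [FiniteDimensional F U] [Module.Finite F K] [Nontrivial U] (k : K) :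
    LinearMap.det (D.φ k) = Algebra.norm F k := by
  obtain ⟨x, hx⟩ := exists_ne (0 : U)
  rw [Algebra.norm_apply, ← LinearMap.det_conj (Algebra.lmul F K k) (D.eu hx)]
  congr 1
  ext y
  obtain ⟨k', rfl⟩ := (D.eu hx).surjective y
  rw [LinearMap.comp_apply, LinearMap.comp_apply, LinearEquiv.coe_coe, LinearEquiv.coe_coe,
    LinearEquiv.symm_apply_apply, eu_apply, eu_apply, Algebra.coe_lmul_eq_mul,
    LinearMap.mul_apply', map_mul]
  rfl

end FA

/-- Adjoints with respect to a pairing. -/
theorem exists_adj {U' : Type*} [AddCommGroup U'] [Module F U'] [FiniteDimensional F U]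
    [FiniteDimensional F U'] (p : U →ₗ[F] U' →ₗ[F] F) (h1 : ∀ x, (∀ y, p x y = 0) → x = 0)
    (h2 : ∀ y, (∀ x, p x y = 0) → y = 0) (f : Module.End F U) :
    ∃ f' : Module.End F U', (∀ x y, p x (f' y) = p (f x) y) ∧ LinearMap.det f' = LinearMap.det f := by
  have i1 : Function.Injective p := by
    rw [← LinearMap.ker_eq_bot, LinearMap.ker_eq_bot']
    intro x hx
    exact h1 x fun y => by rw [hx]; rfl
  have i2 : Function.Injective p.flip := by
    rw [← LinearMap.ker_eq_bot, LinearMap.ker_eq_bot']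
    intro y hy
    exact h2 y fun x => by rw [← LinearMap.flip_apply, hy]; rfl
  have d1 := LinearMap.finrank_le_finrank_of_injective i1
  have d2 := LinearMap.finrank_le_finrank_of_injective i2
  have e1 : finrank F (U →ₗ[F] F) = finrank F U := Subspace.dual_finrank_eq
  have e2 : finrank F (U' →ₗ[F] F) = finrank F U' := Subspace.dual_finrank_eq
  let e : U' ≃ₗ[F] Dual F U := LinearEquiv.ofInjectiveOfFinrankEq p.flip i2 (by
    change finrank F U' = finrank F (U →ₗ[F] F)
    omega)
  have he : ∀ x y, e y x = p x y := fun x y => rfl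
  refine ⟨e.symm.toLinearMap ∘ₗ f.dualMap ∘ₗ e.symm.symm.toLinearMap, fun x y => ?_, ?_⟩
  · rw [← he, LinearMap.comp_apply, LinearMap.comp_apply, LinearEquiv.coe_coe,
      LinearEquiv.apply_symm_apply]
    rfl
  · rw [LinearMap.det_conj]
    exact LinearMap.det_dualMap f

theorem adj_unique {U' : Type*} [AddCommGroup U'] [Module F U'] {p : U →ₗ[F] U' →ₗ[F] F}
    (h2 : ∀ y, (∀ x, p x y = 0) → y = 0) {f' f'' : Module.End F U'}
    (h : ∀ x y, p x (f' y) = p x (f'' y)) : f' = f'' := by
  ext y
  rw [← sub_eq_zero]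
  apply h2
  intro x
  rw [map_sub, h, sub_self]

end Cfsg.Agent.H204
end

-- part: H204/SelfDual
section
/-!
# Irreducible isometries (helper204)

`U` with a symmetric nondegenerate form `B` over a finite field, `s` an irreducible isometry with `s² ≠ 1`, `K = F[s]`.
* `exists_conj` : `|K| = q ^ (2 d)`, `0 < d`, `B (φ k x) y = B x (φ (k ^ q ^ d) y)`;
* `exists_pow_eq` : the elements `c ∈ F`, `c ≠ 0`, are `(q ^ d + 1)`-th powers in `K`;
* `det_of_pow` : if `k ^ (q ^ d + 1) = c` then `det (φ k) = c ^ d`.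
-/

set_option autoImplicit false

namespace Cfsg.Agent.H204

open Module Polynomial

universe u v

variable {F : Type u} {U : Type v} [Field F] [AddCommGroup U] [Module F U]

section Conj

variable {s : Module.End F U} {K : Type u} [Field K] [Algebra F K]
  {B : LinearMap.BilinForm F U}

theorem zeta_ne_zero [Nontrivial U] (D : FA s K) (hs : Function.Injective s) : D.ζ ≠ 0 := by
  intro h
  obtain ⟨x, hx⟩ := exists_ne (0 : U)
  have h1 : s x = 0 := by rw [← D.hζ, h, map_zero, LinearMap.zero_apply]
  exact hx (hs (by rw [h1, map_zero]))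

theorem exists_conj_elt [Nontrivial U] (D : FA s K) (hs : Function.Injective s)
    (hB : Smi B 1 s) (k : K) : ∃ k' : K, ∀ x y, B (D.φ k x) y = B x (D.φ k' y) := by
  obtain ⟨f, rfl⟩ := D.gen k
  have h0 := zeta_ne_zero D hs
  have h1 : ∀ x y, B (D.φ D.ζ x) y = B x (D.φ D.ζ⁻¹ y) := by
    intro x y
    have h2 : y = D.φ D.ζ (D.φ D.ζ⁻¹ y) := by
      rw [← Module.End.mul_apply, ← map_mul, mul_inv_cancel₀ h0, map_one]; rfl
    conv_lhs => rw [h2]
    rw [D.hζ, hB, one_mul]
  have h3 : ∀ (n : ℕ) x y, B (D.φ (D.ζ ^ n) x) y = B x (D.φ (D.ζ⁻¹ ^ n) y) := by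
    intro n
    induction n with
    | zero => intro x y; rw [pow_zero, pow_zero, map_one]; rfl
    | succ n ih =>
      intro x y
      rw [pow_succ, map_mul, Module.End.mul_apply, ih, h1, pow_succ', map_mul, Module.End.mul_apply]
  induction f using Polynomial.induction_on' with
  | add f g hf hg =>
    obtain ⟨a, ha⟩ := hf
    obtain ⟨b, hb⟩ := hg
    refine ⟨a + b, fun x y => ?_⟩
    rw [map_add, map_add, map_add, LinearMap.add_apply, LinearMap.add_apply, map_add, map_add,
      LinearMap.add_apply, ha, hb]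
  | monomial n a =>
    refine ⟨a • D.ζ⁻¹ ^ n, fun x y => ?_⟩
    rw [aeval_monomial, ← Algebra.smul_def, map_smul, map_smul, LinearMap.smul_apply,
      LinearMap.smul_apply, map_smul, map_smul, LinearMap.smul_apply, h3]

theorem phi_eq_of (hn : Nd B) (hsy : Sy B) {f g : Module.End F U}
    (h : ∀ x y, B x (f y) = B x (g y)) : f = g := by
  ext y
  rw [← sub_eq_zero]
  apply hn
  intro x
  rw [hsy, map_sub, h, sub_self]

/-- the conjugation of `K` -/
theorem exists_conj_hom [Nontrivial U] (D : FA s K) (hs : Function.Injective s)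
    (hn : Nd B) (hsy : Sy B) (hB : Smi B 1 s) :
    ∃ τ : K →ₐ[F] K, (∀ k x y, B (D.φ k x) y = B x (D.φ (τ k) y)) ∧ τ D.ζ = D.ζ⁻¹ := by
  choose t ht using exists_conj_elt D hs hB
  have hinj := D.phi_inj
  have huniq : ∀ {k k' : K}, (∀ x y, B (D.φ k x) y = B x (D.φ k' y)) → t k = k' := by
    intro k k' h
    apply hinj
    apply phi_eq_of hn hsy
    intro x y
    rw [← ht, h]
  let τ : K →ₐ[F] K := 
    { toFun := t
      map_one' := huniq fun x y => by rw [map_one]; rfl
      map_mul' := fun a b => huniq fun x y => by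
        rw [mul_comm a b, map_mul, Module.End.mul_apply, ht, ht, map_mul, Module.End.mul_apply]
      map_zero' := huniq fun x y => by
        rw [map_zero, LinearMap.zero_apply, LinearMap.zero_apply, map_zero, map_zero,
          LinearMap.zero_apply]
      map_add' := fun a b => huniq fun x y => by
        rw [map_add, map_add, LinearMap.add_apply, LinearMap.add_apply, map_add,
          LinearMap.add_apply, map_add, ht, ht]
      commutes' := fun c => huniq fun x y => by
        rw [AlgHom.commutes, Module.algebraMap_end_apply, Module.algebraMap_end_apply, map_smul,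
          LinearMap.smul_apply, map_smul] }
  refine ⟨τ, ht, ?_⟩
  apply huniq
  intro x y
  have h0 := zeta_ne_zero D hs
  have h2 : y = D.φ D.ζ (D.φ D.ζ⁻¹ y) := by
    rw [← Module.End.mul_apply, ← map_mul, mul_inv_cancel₀ h0, map_one]; rfl
  conv_lhs => rw [h2]
  rw [D.hζ, hB, one_mul]

theorem exists_conj [Fintype F] [FiniteDimensional F U] [Nontrivial U] [Module.Finite F K]
    (D : FA s K) (hs : Function.Injective s)
    (hn : Nd B) (hsy : Sy B) (hB : Smi B 1 s) (h2 : s * s ≠ 1) :
    ∃ d, 0 < d ∧ finrank F K = 2 * d ∧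
      ∀ k x y, B (D.φ k x) y = B x (D.φ (k ^ (Fintype.card F ^ d)) y) := by
  obtain ⟨τ, hτ, hζ⟩ := exists_conj_hom D hs hn hsy hB
  have : Finite K := Module.finite_of_finite F
  obtain ⟨j, hj⟩ := (FiniteField.bijective_frobeniusAlgHom_pow F K).2 τ
  have hj' : ∀ k : K, τ k = k ^ (Fintype.card F ^ (j : ℕ)) := by
    intro k
    rw [← hj]
    change (FiniteField.frobeniusAlgHom F K ^ (j : ℕ)) k = _
    rw [AlgHom.coe_pow, FiniteField.coe_frobeniusAlgHom, pow_iterate]
  have hinj := D.phi_inj
  have hττ : ∀ k, τ (τ k) = k := by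
    intro k
    apply hinj
    apply phi_eq_of hn hsy
    intro x y
    rw [← hτ, hsy, ← hτ, hsy]
  have h4 : (FiniteField.frobeniusAlgHom F K) ^ (2 * (j : ℕ)) = 1 := by
    rw [two_mul, pow_add]
    have : (FiniteField.frobeniusAlgHom F K) ^ (j : ℕ) = τ := hj
    rw [this]
    ext k
    exact hττ k
  have h5 := orderOf_dvd_of_pow_eq_one h4
  rw [FiniteField.orderOf_frobeniusAlgHom] at h5
  have h6 : (j : ℕ) ≠ 0 := by
    intro h0
    apply h2
    have h7 : τ D.ζ = D.ζ := by rw [hj', h0, pow_zero, pow_one]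
    rw [hζ] at h7
    have h8 : D.ζ * D.ζ = 1 := by
      nth_rewrite 1 [← h7]
      exact inv_mul_cancel₀ (zeta_ne_zero D hs)
    rw [← D.hζ, ← map_mul, h8, map_one]
  have h7 := j.2
  obtain ⟨e, he⟩ := h5
  refine ⟨j, Nat.pos_of_ne_zero h6, ?_, fun k x y => by rw [hτ, hj']⟩
  have h8 : e = 1 := by
    have h9 : 0 < e := by
      rcases Nat.eq_zero_or_pos e with h | h
      · rw [h, mul_zero] at he; omega
      · exact h
    by_contra h10
    have h11 : 2 ≤ e := by omega
    have h12 : finrank F K * 2 ≤ finrank F K * e := Nat.mul_le_mul_left _ h11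
    omega
  rw [h8, mul_one] at he
  exact he.symm

end Conj

end Cfsg.Agent.H204
end

-- part: H204/FieldCount
section
/-!
# Norms in a quadratic extension of finite fields (helper204)

`|F| = q` odd, `K / F` finite of degree `2 d`, `Q = q ^ d`.
* `exists_pow_succ` : `z ^ Q = z`, `z ≠ 0`: `z = k ^ (Q + 1)`;
* `exists_torus_gen` : `t` of order `Q + 1`;
* `norm_of_pow` : `k ^ (Q + 1) = c ∈ F` has norm `c ^ d`;
* `card_pow_fiber` : for a linear `l : K → F` not zero on the fixed field of `k ↦ k ^ Q`:
  `#{k ≠ 0 | l (k ^ (Q + 1)) = a} = (Q + 1) m`, `m` odd iff `a ≠ 0`.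
-/

set_option autoImplicit false

namespace Cfsg.Agent.H204

open Module

section Cyclic

variable {G : Type*} [CommGroup G] [IsCyclic G] [Finite G]

/-- in a cyclic group of order `a b`, the elements with `g ^ a = 1` are the `b`-th powers -/
theorem exists_pow_of_pow {a b : ℕ} (hG : Nat.card G = a * b) (ha : 0 < a) {g : G}
    (hg : g ^ a = 1) : ∃ h : G, h ^ b = g := by
  obtain ⟨w, hw⟩ := IsCyclic.exists_generator (α := G)
  obtain ⟨i, hi⟩ := (Submonoid.mem_powers_iff _ _).1 ((mem_powers_iff_mem_zpowers).2 (hw g))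
  have ho : orderOf w = a * b := by rw [← hG]; exact orderOf_eq_card_of_forall_mem_zpowers hw
  have h1 : w ^ (i * a) = 1 := by rw [pow_mul, hi, hg]
  have h2 : a * b ∣ i * a := by rw [← ho]; exact orderOf_dvd_of_pow_eq_one h1
  rw [mul_comm a b] at h2
  obtain ⟨e, he⟩ := Nat.dvd_of_mul_dvd_mul_right ha h2
  exact ⟨w ^ e, by rw [← hi, he, ← pow_mul, mul_comm]⟩

theorem exists_orderOf {a b : ℕ} (hG : Nat.card G = a * b) : ∃ g : G, orderOf g = b := by
  obtain ⟨w, hw⟩ := IsCyclic.exists_generator (α := G)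
  have ho : orderOf w = a * b := by rw [← hG]; exact orderOf_eq_card_of_forall_mem_zpowers hw
  have hpos : 0 < a * b := by rw [← hG]; exact Nat.card_pos
  have ha : a ≠ 0 := by rintro rfl; simp at hpos
  refine ⟨w ^ a, ?_⟩
  rw [orderOf_pow, ho, Nat.gcd_eq_right (Dvd.intro _ rfl), Nat.mul_div_cancel_left _ (Nat.pos_of_ne_zero ha)]

theorem card_pow_fiber_group [Fintype G] [DecidableEq G] {a b : ℕ} (hG : Nat.card G = a * b)
    (ha : 0 < a) {g : G} (hg : g ^ a = 1) :
    (Finset.univ.filter fun x : G => x ^ b = g).card = b := by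
  obtain ⟨h, hh⟩ := exists_pow_of_pow hG ha hg
  have h1 := MonoidHom.card_fiber_eq_of_mem_range (powMonoidHom b : G →* G) (x := g) (y := 1)
    ⟨h, hh⟩ ⟨1, one_pow b⟩
  have h2 : (Finset.univ.filter fun x : G => x ^ b = g).card =
      (Finset.univ.filter fun x : G => x ^ b = 1).card := h1
  rw [h2]
  have h3 := IsCyclic.card_powMonoidHom_ker (G := G) b
  rw [hG, Nat.gcd_eq_right (Dvd.intro_left _ rfl)] at h3
  conv_rhs => rw [← h3]
  rw [Nat.card_eq_fintype_card, Fintype.card_subtype]
  congr 1
  ext x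
  rw [Finset.mem_filter, Finset.mem_filter, MonoidHom.mem_ker]
  rfl

end Cyclic

section Field

variable {F : Type*} [Field F] [Fintype F] {K : Type*} [Field K] [Algebra F K] [Finite K] {d : ℕ}

theorem card_K (hK : finrank F K = 2 * d) :
    Nat.card K = Fintype.card F ^ d * Fintype.card F ^ d := by
  rw [Module.natCard_eq_pow_finrank (K := F), hK, Nat.card_eq_fintype_card, two_mul, pow_add]

theorem card_Kx (hK : finrank F K = 2 * d) :
    Nat.card Kˣ = (Fintype.card F ^ d - 1) * (Fintype.card F ^ d + 1) := by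
  rw [Nat.card_units, card_K hK, Nat.sub_mul, one_mul, mul_add, mul_one]
  omega

theorem one_lt_Q (hd : 0 < d) : 1 < Fintype.card F ^ d :=
  Nat.one_lt_pow (by omega) Fintype.one_lt_card

omit [Algebra F K] [Finite K] in
theorem unit_pow_sub_one {z : Kˣ} (hz : (z : K) ^ (Fintype.card F ^ d) = z) :
    z ^ (Fintype.card F ^ d - 1) = 1 := by
  have h1 : 0 < Fintype.card F ^ d := pow_pos Fintype.card_pos d
  have h2 : z ^ (Fintype.card F ^ d) = z := Units.ext hz
  have h3 : z ^ (Fintype.card F ^ d - 1) * z = z := by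
    rw [← pow_succ, Nat.sub_add_cancel h1, h2]
  exact mul_eq_right.1 h3

theorem exists_pow_succ (hK : finrank F K = 2 * d) (hd : 0 < d) {z : K} (hz0 : z ≠ 0)
    (hz : z ^ (Fintype.card F ^ d) = z) : ∃ k : K, k ^ (Fintype.card F ^ d + 1) = z := by
  have h1 := one_lt_Q (F := F) hd
  obtain ⟨k, hk⟩ := exists_pow_of_pow (G := Kˣ) (card_Kx hK) (by omega) (g := Units.mk0 z hz0)
    (unit_pow_sub_one (by exact hz))
  exact ⟨k, by rw [← Units.val_pow_eq_pow_val, hk, Units.val_mk0]⟩

omit [Finite K] in
theorem algebraMap_pow_card (c : F) (d : ℕ) :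
    (algebraMap F K c) ^ (Fintype.card F ^ d) = algebraMap F K c := by
  rw [← map_pow, FiniteField.pow_card_pow]

theorem exists_torus_gen (hK : finrank F K = 2 * d) :
    ∃ t : K, t ^ (Fintype.card F ^ d + 1) = 1 ∧ ∀ j : ℕ, t ^ j = 1 ↔ Fintype.card F ^ d + 1 ∣ j := by
  obtain ⟨t, ht⟩ := exists_orderOf (G := Kˣ) (card_Kx hK)
  have h1 : ∀ j : ℕ, (t : K) ^ j = 1 ↔ Fintype.card F ^ d + 1 ∣ j := by
    intro j
    rw [← ht, orderOf_dvd_iff_pow_eq_one, ← Units.val_pow_eq_pow_val, Units.val_eq_one]
  exact ⟨t, (h1 _).2 dvd_rfl, h1⟩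

theorem norm_of_pow (hK : finrank F K = 2 * d) {k : K} {c : F}
    (hk : k ^ (Fintype.card F ^ d + 1) = algebraMap F K c) : Algebra.norm F k = c ^ d := by
  apply (algebraMap F K).injective
  rw [FiniteField.algebraMap_norm_eq_prod_pow, hK, two_mul, Finset.prod_range_add,
    ← Finset.prod_mul_distrib, Nat.card_eq_fintype_card]
  have h1 : ∀ i ∈ Finset.range d, k ^ Fintype.card F ^ i * k ^ Fintype.card F ^ (d + i) =
      algebraMap F K c := by
    intro i _
    rw [pow_add, pow_mul, ← mul_pow, mul_comm k, ← pow_succ, hk, algebraMap_pow_card]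
  rw [Finset.prod_congr rfl h1, Finset.prod_const, Finset.card_range, map_pow]

/-- the fixed field of `k ↦ k ^ q ^ d`, as a subspace -/
def fixedSub (F : Type*) [Field F] [Fintype F] (K : Type*) [Field K] [Algebra F K] (d : ℕ) :
    Submodule F K :=
  LinearMap.ker (((FiniteField.frobeniusAlgHom F K) ^ d).toLinearMap - LinearMap.id)

omit [Finite K] in
theorem mem_fixedSub {k : K} : k ∈ fixedSub F K d ↔ k ^ (Fintype.card F ^ d) = k := by
  rw [fixedSub, LinearMap.mem_ker, LinearMap.sub_apply, sub_eq_zero, LinearMap.id_apply,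
    AlgHom.toLinearMap_apply, AlgHom.coe_pow, FiniteField.coe_frobeniusAlgHom, pow_iterate]

theorem odd_card_module (ho : Odd (Fintype.card F)) (V : Type*) [AddCommGroup V] [Module F V]
    [Finite V] : Odd (Nat.card V) := by
  have : Module.Finite F V := Module.Finite.of_finite
  rw [Module.natCard_eq_pow_finrank (K := F), Nat.card_eq_fintype_card]
  exact ho.pow

/-- the fibres of a nonzero linear form have odd size -/
theorem odd_card_fiber (ho : Odd (Fintype.card F)) {V : Type*} [AddCommGroup V] [Module F V]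
    [Finite V] (l : V →ₗ[F] F) (hl : l ≠ 0) (a : F) : Odd (Nat.card {v : V // l v = a}) := by
  obtain ⟨v₀, hv₀⟩ := LinearMap.surjective hl a
  have e : {v : V // l v = a} ≃ LinearMap.ker l :=
    { toFun := fun v => ⟨v.1 - v₀, by rw [LinearMap.mem_ker, map_sub, v.2, hv₀, sub_self]⟩
      invFun := fun v => ⟨v.1 + v₀, by rw [map_add, LinearMap.mem_ker.1 v.2, hv₀, zero_add]⟩
      left_inv := fun v => Subtype.ext (sub_add_cancel _ _)
      right_inv := fun v => Subtype.ext (add_sub_cancel_right _ _) }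
  rw [Nat.card_congr e]
  exact odd_card_module ho _

omit [Algebra F K] [Finite K] in
theorem unit_pow_of_pow {z : Kˣ} (hz : z ^ (Fintype.card F ^ d - 1) = 1) :
    (z : K) ^ (Fintype.card F ^ d) = z := by
  have h1 : 0 < Fintype.card F ^ d := pow_pos Fintype.card_pos d
  have h2 : z ^ (Fintype.card F ^ d) = z := by
    have h3 : z ^ (Fintype.card F ^ d - 1) * z = z := by rw [hz, one_mul]
    rwa [← pow_succ, Nat.sub_add_cancel h1] at h3
  rw [← Units.val_pow_eq_pow_val, h2]

theorem card_pow_fiber (ho : Odd (Fintype.card F)) (hK : finrank F K = 2 * d) (hd : 0 < d)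
    (l : K →ₗ[F] F) (hl : ∃ z ∈ fixedSub F K d, l z ≠ 0) (a : F) :
    ∃ m, Nat.card {k : K // k ≠ 0 ∧ l (k ^ (Fintype.card F ^ d + 1)) = a} =
      (Fintype.card F ^ d + 1) * m ∧ (Odd m ↔ a ≠ 0) := by
  classical
  have := Fintype.ofFinite K
  set Q := Fintype.card F ^ d with hQ
  have h1Q : 1 < Q := one_lt_Q hd
  have hG : Nat.card Kˣ = (Q - 1) * (Q + 1) := card_Kx hK
  let S : Finset Kˣ := Finset.univ.filter fun x => l ((x : K) ^ (Q + 1)) = a
  let T : Finset Kˣ := Finset.univ.filter fun z => z ^ (Q - 1) = 1 ∧ l z = a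
  have hS : Nat.card {k : K // k ≠ 0 ∧ l (k ^ (Q + 1)) = a} = S.card := by
    have e : {k : K // k ≠ 0 ∧ l (k ^ (Q + 1)) = a} ≃ {x : Kˣ // x ∈ S} :=
      { toFun := fun k => ⟨Units.mk0 k.1 k.2.1, Finset.mem_filter.2 ⟨Finset.mem_univ _, k.2.2⟩⟩
        invFun := fun x => ⟨x.1, x.1.ne_zero, (Finset.mem_filter.1 x.2).2⟩
        left_inv := fun k => rfl
        right_inv := fun x => Subtype.ext (Units.ext rfl) }
    rw [Nat.card_congr e, Nat.card_eq_fintype_card, Fintype.card_coe]
  have hST : S.card = (Q + 1) * T.card := by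
    have h1 := Finset.card_eq_sum_card_fiberwise (s := S) (f := fun x => x ^ (Q + 1)) (t := T)
      (by
        intro x hx
        have hx' := (Finset.mem_filter.1 (Finset.mem_coe.1 hx)).2
        refine Finset.mem_coe.2 (Finset.mem_filter.2 ⟨Finset.mem_univ _, ?_, ?_⟩)
        · rw [← pow_mul, mul_comm, ← hG]
          exact pow_card_eq_one'
        · rw [Units.val_pow_eq_pow_val]
          exact hx')
    rw [h1, Finset.sum_congr rfl (g := fun _ => Q + 1), Finset.sum_const, smul_eq_mul, mul_comm]
    intro z hz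
    rw [Finset.mem_filter] at hz
    have h2 := card_pow_fiber_group hG (by omega) hz.2.1
    refine Eq.trans ?_ h2
    congr 1
    ext x
    rw [Finset.mem_filter, Finset.mem_filter, Finset.mem_filter]
    constructor
    · rintro ⟨-, h⟩
      exact ⟨Finset.mem_univ _, h⟩
    · rintro ⟨-, h⟩
      refine ⟨⟨Finset.mem_univ _, ?_⟩, h⟩
      rw [← Units.val_pow_eq_pow_val, h]
      exact hz.2.2
  -- parity of `T`
  let l₀ : fixedSub F K d →ₗ[F] F := l ∘ₗ (fixedSub F K d).subtype
  have hl₀ : l₀ ≠ 0 := by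
    intro h
    obtain ⟨z, hz, hz'⟩ := hl
    exact hz' (LinearMap.congr_fun h ⟨z, hz⟩)
  have hodd := odd_card_fiber ho l₀ hl₀ a
  let T' : Finset K := Finset.univ.filter fun z => z ^ Q = z ∧ l z = a
  have hT' : Nat.card {v : fixedSub F K d // l₀ v = a} = T'.card := by
    have e : {v : fixedSub F K d // l₀ v = a} ≃ {x : K // x ∈ T'} :=
      { toFun := fun v => ⟨v.1.1, Finset.mem_filter.2 ⟨Finset.mem_univ _, mem_fixedSub.1 v.1.2, v.2⟩⟩
        invFun := fun x => ⟨⟨x.1, mem_fixedSub.2 (Finset.mem_filter.1 x.2).2.1⟩,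
          (Finset.mem_filter.1 x.2).2.2⟩
        left_inv := fun k => rfl
        right_inv := fun x => rfl }
    rw [Nat.card_congr e, Nat.card_eq_fintype_card, Fintype.card_coe]
  rw [hT'] at hodd
  have hTT : T'.card = T.card + if a = 0 then 1 else 0 := by
    have h2 : (T'.filter fun z => z ≠ 0).card = T.card := by
      symm
      refine Finset.card_bij (fun x _ => (x : K)) ?_ ?_ ?_
      · intro x hx
        have hx' := (Finset.mem_filter.1 hx).2
        exact Finset.mem_filter.2 ⟨Finset.mem_filter.2 ⟨Finset.mem_univ _, unit_pow_of_pow hx'.1,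
          hx'.2⟩, x.ne_zero⟩
      · intro x _ y _ h
        exact Units.ext h
      · intro z hz
        obtain ⟨hz1, hz0⟩ := Finset.mem_filter.1 hz
        have hz' := (Finset.mem_filter.1 hz1).2
        exact ⟨Units.mk0 z hz0, Finset.mem_filter.2 ⟨Finset.mem_univ _, unit_pow_sub_one hz'.1,
          hz'.2⟩, rfl⟩
    have h3 : (T'.filter fun z => ¬ z ≠ 0).card = if a = 0 then 1 else 0 := by
      split_ifs with ha
      · rw [Finset.card_eq_one]
        refine ⟨0, ?_⟩
        ext z
        rw [Finset.mem_filter, Finset.mem_filter, Finset.mem_singleton]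
        constructor
        · rintro ⟨-, h⟩
          exact not_not.1 h
        · rintro rfl
          refine ⟨⟨Finset.mem_univ _, ?_, ?_⟩, not_not.2 rfl⟩
          · exact zero_pow (by omega)
          · rw [map_zero, ha]
      · rw [Finset.card_eq_zero, Finset.filter_eq_empty_iff]
        intro z hz h
        rw [not_not] at h
        have hz' := (Finset.mem_filter.1 hz).2.2
        rw [h, map_zero] at hz'
        exact ha hz'.symm
    rw [← h2, ← h3, Finset.card_filter_add_card_filter_not]
  refine ⟨T.card, by rw [hS, hST], ?_⟩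
  rw [hTT] at hodd
  by_cases ha : a = 0
  · rw [if_pos ha] at hodd
    simp only [ha, ne_eq, not_true_eq_false, iff_false]
    intro h
    exact (Nat.not_odd_iff_even.2 (h.add_odd odd_one)) hodd
  · rw [if_neg ha, add_zero] at hodd
    exact ⟨fun _ => ha, fun _ => hodd⟩

end Field

end Cfsg.Agent.H204
end

-- part: H204/PieceIrr
section
/-!
# Torus elements: the irreducible case (helper204)

`Pc B s` : the space has dimension `2 d`, for each `c ≠ 0` there is `g` commuting with `s`, multiplying `B` by `c`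
with `det g = c ^ d`, and there is an isometry `t` commuting with `s`, `det t = 1`, generating a group of even order
`N` acting semiregularly on the non-zero vectors such that `#{x ≠ 0 | B x x = a} = N m`, `m` odd iff `a ≠ 0`.
* `pc_irr` : an irreducible isometry `s`, `s² ≠ 1`.
-/

set_option autoImplicit false

namespace Cfsg.Agent.H204

open Module Polynomial

universe u v

/-- see the head of the file -/
structure Pc {F : Type u} {U : Type v} [Field F] [AddCommGroup U] [Module F U]
    (B : LinearMap.BilinForm F U) (s : Module.End F U) : Prop where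
  sim : ∃ d, finrank F U = 2 * d ∧ ∀ c : F, c ≠ 0 → ∃ g : Module.End F U,
    Smi B c g ∧ (∀ x, g (s x) = s (g x)) ∧ LinearMap.det g = c ^ d
  tor : ∃ (t : Module.End F U) (N : ℕ), Even N ∧ 0 < N ∧ Smi B 1 t ∧ (∀ x, t (s x) = s (t x)) ∧
    LinearMap.det t = 1 ∧ t ^ N = 1 ∧ (∀ x : U, x ≠ 0 → ∀ j : ℕ, (t ^ j) x = x → N ∣ j) ∧
    ∀ a : F, ∃ m, Nat.card {x : U // x ≠ 0 ∧ B x x = a} = N * m ∧ (Odd m ↔ a ≠ 0)

variable {F : Type u} {U : Type v} [Field F] [AddCommGroup U] [Module F U]

theorem two_ne_zero_of_odd [Fintype F] (ho : Odd (Fintype.card F)) : (2 : F) ≠ 0 := by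
  intro h
  have h1 : (1 : F) + 1 = 0 := by rw [one_add_one_eq_two]; exact h
  have h2 : addOrderOf (1 : F) ∣ 2 := by
    rw [addOrderOf_dvd_iff_nsmul_eq_zero, two_nsmul]; exact h1
  have h3 : addOrderOf (1 : F) ∣ Fintype.card F := addOrderOf_dvd_card
  have h4 : addOrderOf (1 : F) ∣ 1 := by
    have := Nat.dvd_gcd h2 h3
    rwa [(Nat.coprime_two_left.2 ho).gcd_eq_one] at this
  have h5 : addOrderOf (1 : F) = 1 := Nat.dvd_one.1 h4
  exact one_ne_zero (AddMonoid.addOrderOf_eq_one_iff.1 h5)

theorem pc_irr [Fintype F] [FiniteDimensional F U] [Nontrivial U] (ho : Odd (Fintype.card F))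
    {s : Module.End F U} {B : LinearMap.BilinForm F U}
    (hirr : ∀ W : Submodule F U, (∀ w ∈ W, s w ∈ W) → W = ⊥ ∨ W = ⊤)
    (hs : Function.Injective s) (hn : Nd B) (hsy : Sy B) (hB : Smi B 1 s) (h2 : s * s ≠ 1) :
    Pc B s := by
  have h2F := two_ne_zero_of_odd ho
  obtain ⟨K, iK, iA, iF, ⟨D⟩⟩ := exists_fa s hirr
  have iFK : Finite K := Module.finite_of_finite F
  have iFt : Fintype K := Fintype.ofFinite K
  obtain ⟨d, hd, hK, hτ⟩ := exists_conj D hs hn hsy hB h2
  obtain ⟨u₀, hu₀⟩ := exists_ne (0 : U)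
  have hfr : finrank F U = 2 * d := by rw [← hK, (D.eu hu₀).finrank_eq]
  set Q := Fintype.card F ^ d with hQ
  have h1Q : 1 < Q := one_lt_Q hd
  have hcomm : ∀ (k : K) (x : U), D.φ k (s x) = s (D.φ k x) := by
    intro k x
    have h1 : D.φ k * D.φ D.ζ = D.φ D.ζ * D.φ k := by rw [← map_mul, mul_comm, map_mul]
    rw [D.hζ] at h1
    exact LinearMap.congr_fun h1 x
  have hsmi : ∀ (k : K) (c : F), k ^ (Q + 1) = algebraMap F K c → Smi B c (D.φ k) := by
    intro k c hk x y
    rw [hτ, ← Module.End.mul_apply, ← map_mul, ← pow_succ, hk, AlgHom.commutes,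
      Module.algebraMap_end_apply, map_smul, smul_eq_mul]
  have hdet : ∀ (k : K) (c : F), k ^ (Q + 1) = algebraMap F K c →
      LinearMap.det (D.φ k) = c ^ d := by
    intro k c hk
    rw [D.det_eq_norm, norm_of_pow hK hk]
  refine ⟨⟨d, hfr, fun c hc => ?_⟩, ?_⟩
  · obtain ⟨k, hk⟩ := exists_pow_succ hK hd (z := algebraMap F K c)
      ((_root_.map_ne_zero _).2 hc) (algebraMap_pow_card c d)
    exact ⟨D.φ k, hsmi k c hk, hcomm k, hdet k c hk⟩
  · obtain ⟨t, ht, ht'⟩ := exists_torus_gen (F := F) (K := K) hK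
    have ht1 : t ^ (Q + 1) = algebraMap F K 1 := by rw [map_one]; exact ht
    refine ⟨D.φ t, Q + 1, (ho.pow).add_odd odd_one, by omega, hsmi t 1 ht1, hcomm t,
      by rw [hdet t 1 ht1, one_pow], by rw [← map_pow, ht, map_one], ?_, ?_⟩
    · intro x hx j hj
      rw [← map_pow] at hj
      have h3 : t ^ j = 1 := (D.bij x hx).1 (by
        change D.φ (t ^ j) x = D.φ 1 x
        rw [hj, map_one]; rfl)
      exact (ht' j).1 h3
    · intro a
      let l : K →ₗ[F] F := (B u₀) ∘ₗ (D.eu hu₀).toLinearMap
      have hl : ∀ k, l k = B u₀ (D.φ k u₀) := fun k => rfl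
      have hl0 : ∃ z ∈ fixedSub F K d, l z ≠ 0 := by
        by_contra hcon
        push Not at hcon
        have h3 : ∀ k : K, l k = 0 := by
          intro k
          have h4 : l (k ^ Q) = l k := by
            rw [hl, hl, hQ, ← hτ, hsy]
          have h5 : k + k ^ Q ∈ fixedSub F K d := by
            rw [mem_fixedSub]
            have h6 : (k ^ Q) ^ Q = k := by
              have h7 : Fintype.card K = Q * Q := by
                rw [← Nat.card_eq_fintype_card]; exact card_K hK
              rw [← pow_mul, ← h7, FiniteField.pow_card]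
            have h8 : (k + k ^ Q) ^ Q = k ^ Q + (k ^ Q) ^ Q := by
              have := map_add ((FiniteField.frobeniusAlgHom F K) ^ d) k (k ^ Q)
              simpa only [AlgHom.coe_pow, FiniteField.coe_frobeniusAlgHom, pow_iterate] using this
            rw [← hQ, h8, h6, add_comm]
          have h9 := hcon _ h5
          rw [map_add, h4, ← two_mul] at h9
          exact (mul_eq_zero.1 h9).resolve_left h2F
        apply hu₀
        apply hn
        intro y
        obtain ⟨k, rfl⟩ := (D.eu hu₀).surjective y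
        exact h3 k
      obtain ⟨m, hm, hm'⟩ := card_pow_fiber ho hK hd l hl0 a
      refine ⟨m, ?_, hm'⟩
      rw [← hm]
      apply Nat.card_congr
      refine
        { toFun := fun x => ⟨(D.eu hu₀).symm x.1, ?_, ?_⟩
          invFun := fun k => ⟨D.eu hu₀ k.1, ?_, ?_⟩
          left_inv := fun x => Subtype.ext ((D.eu hu₀).apply_symm_apply _)
          right_inv := fun k => Subtype.ext ((D.eu hu₀).symm_apply_apply _) }
      · intro h
        exact x.2.1 ((LinearEquiv.map_eq_zero_iff _).1 h)
      · obtain ⟨x, hx0, hx⟩ := x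
        obtain ⟨k, rfl⟩ := (D.eu hu₀).surjective x
        rw [LinearEquiv.symm_apply_apply, hl, pow_succ, map_mul, Module.End.mul_apply, ← hτ]
        exact hx
      · intro h
        exact k.2.1 ((LinearEquiv.map_eq_zero_iff _).1 h)
      · obtain ⟨k, hk0, hk⟩ := k
        rw [hl, pow_succ, map_mul, Module.End.mul_apply, ← hτ] at hk
        exact hk

end Cfsg.Agent.H204
end

-- part: H204/PiecePair
section
/-!
# Torus elements: a pair of totally singular subspaces (helper204)

* `pc_pair` : `V = U ⊕ U'`, both totally singular and invariant, `U` irreducible: `Pc B s`.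
-/

set_option autoImplicit false

namespace Cfsg.Agent.H204

open Module Polynomial

universe u v

variable {F : Type u} [Field F]

theorem finrank_eq_of_pairing {U U' : Type*} [AddCommGroup U] [Module F U] [AddCommGroup U']
    [Module F U'] [FiniteDimensional F U]
    [FiniteDimensional F U'] (p : U →ₗ[F] U' →ₗ[F] F) (h1 : ∀ x, (∀ y, p x y = 0) → x = 0)
    (h2 : ∀ y, (∀ x, p x y = 0) → y = 0) : finrank F U = finrank F U' := by
  have i1 : Function.Injective p := by
    rw [← LinearMap.ker_eq_bot, LinearMap.ker_eq_bot']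
    intro x hx
    exact h1 x fun y => by rw [hx]; rfl
  have i2 : Function.Injective p.flip := by
    rw [← LinearMap.ker_eq_bot, LinearMap.ker_eq_bot']
    intro y hy
    exact h2 y fun x => by rw [← LinearMap.flip_apply, hy]; rfl
  have d1 := LinearMap.finrank_le_finrank_of_injective i1
  have d2 := LinearMap.finrank_le_finrank_of_injective i2
  have e1 : finrank F (U →ₗ[F] F) = finrank F U := Subspace.dual_finrank_eq
  have e2 : finrank F (U' →ₗ[F] F) = finrank F U' := Subspace.dual_finrank_eq
  omega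

/-- the fibres of a nonzero linear form -/
theorem card_fiber [Fintype F] {V : Type*} [AddCommGroup V] [Module F V]
    [FiniteDimensional F V] (l : V →ₗ[F] F) (hl : l ≠ 0) (a : F) :
    Nat.card {v : V // l v = a} = Fintype.card F ^ (finrank F V - 1) := by
  have : Finite V := Module.finite_of_finite F
  obtain ⟨v₀, hv₀⟩ := LinearMap.surjective hl a
  have e : {v : V // l v = a} ≃ LinearMap.ker l :=
    { toFun := fun v => ⟨v.1 - v₀, by rw [LinearMap.mem_ker, map_sub, v.2, hv₀, sub_self]⟩
      invFun := fun v => ⟨v.1 + v₀, by rw [map_add, LinearMap.mem_ker.1 v.2, hv₀, zero_add]⟩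
      left_inv := fun v => Subtype.ext (sub_add_cancel _ _)
      right_inv := fun v => Subtype.ext (add_sub_cancel_right _ _) }
  rw [Nat.card_congr e, Module.natCard_eq_pow_finrank (K := F), Nat.card_eq_fintype_card]
  congr 1
  have h1 := LinearMap.finrank_range_add_finrank_ker l
  rw [LinearMap.range_eq_top.2 (LinearMap.surjective hl), finrank_top, finrank_self] at h1
  omega

/-- counting in a hyperbolic pair -/
theorem card_pair [Fintype F] (ho : Odd (Fintype.card F)) {U U' : Type*} [AddCommGroup U]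
    [Module F U] [AddCommGroup U'] [Module F U'] [FiniteDimensional F U]
    [FiniteDimensional F U'] (p : U →ₗ[F] U' →ₗ[F] F) (h1 : ∀ x, (∀ y, p x y = 0) → x = 0)
    (h2 : ∀ y, (∀ x, p x y = 0) → y = 0) (a : F) :
    ∃ m, Nat.card {x : U × U' // x ≠ 0 ∧ 2 * p x.1 x.2 = a} = (Nat.card U - 1) * m ∧
      (Odd m ↔ a ≠ 0) := by
  classical
  have h2F := two_ne_zero_of_odd ho
  have hUf : Finite U := Module.finite_of_finite F
  have hUf' : Finite U' := Module.finite_of_finite F
  have := Fintype.ofFinite U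
  have := Fintype.ofFinite U'
  have hfr := finrank_eq_of_pairing p h1 h2
  have hcard : Nat.card U = Nat.card U' := by
    rw [Module.natCard_eq_pow_finrank (K := F), Module.natCard_eq_pow_finrank (K := F) (V := U'), hfr]
  set M := Fintype.card F ^ (finrank F U' - 1) with hM
  have hfib : ∀ x : U, x ≠ 0 → Nat.card {y : U' // 2 * p x y = a} = M := by
    intro x hx
    have hl : (2 : F) • p x ≠ 0 := by
      rw [smul_ne_zero_iff]
      refine ⟨h2F, fun h => hx (h1 x fun y => by rw [h]; rfl)⟩
    exact card_fiber ((2 : F) • p x) hl a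
  have hS : Nat.card {x : U × U' // x ≠ 0 ∧ 2 * p x.1 x.2 = a} =
      ∑ x : U, Nat.card {y : U' // (x, y) ≠ 0 ∧ 2 * p x y = a} := by
    have e : {x : U × U' // x ≠ 0 ∧ 2 * p x.1 x.2 = a} ≃
        Σ x : U, {y : U' // (x, y) ≠ 0 ∧ 2 * p x y = a} :=
      { toFun := fun z => ⟨z.1.1, z.1.2, z.2⟩
        invFun := fun z => ⟨(z.1, z.2.1), z.2.2⟩
        left_inv := fun z => rfl
        right_inv := fun z => rfl }
    rw [Nat.card_congr e, Nat.card_sigma]
  have h0 : Nat.card {y : U' // ((0 : U), y) ≠ 0 ∧ 2 * p 0 y = a} =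
      (Nat.card U - 1) * (if a = 0 then 1 else 0) := by
    split_ifs with ha
    · rw [mul_one, hcard]
      have e : {y : U' // ((0 : U), y) ≠ 0 ∧ 2 * p 0 y = a} ≃ {y : U' // y ≠ 0} :=
        { toFun := fun y => ⟨y.1, fun h => y.2.1 (by rw [h]; rfl)⟩
          invFun := fun y => ⟨y.1, fun h => y.2 (congrArg Prod.snd h), by
            rw [map_zero, LinearMap.zero_apply, mul_zero, ha]⟩
          left_inv := fun y => rfl
          right_inv := fun y => rfl }
      rw [Nat.card_congr e, Nat.card_eq_fintype_card, Nat.card_eq_fintype_card,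
        Fintype.card_subtype_compl]
      simp
    · rw [mul_zero]
      have : IsEmpty {y : U' // ((0 : U), y) ≠ 0 ∧ 2 * p 0 y = a} := ⟨fun y => ha (by
        obtain ⟨y, -, hy⟩ := y
        rw [map_zero, LinearMap.zero_apply, mul_zero] at hy
        exact hy.symm)⟩
      exact Nat.card_of_isEmpty
  refine ⟨M + if a = 0 then 1 else 0, ?_, ?_⟩
  · rw [hS, ← Finset.sum_erase_add _ _ (Finset.mem_univ (0 : U)), h0, mul_add]
    congr 1
    rw [Finset.sum_congr rfl (g := fun _ => M), Finset.sum_const, Finset.card_erase_of_mem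
      (Finset.mem_univ _), smul_eq_mul, Finset.card_univ, Nat.card_eq_fintype_card]
    intro x hx
    have hx0 : x ≠ 0 := (Finset.mem_erase.1 hx).1
    rw [← hfib x hx0]
    apply Nat.card_congr
    exact
      { toFun := fun y => ⟨y.1, y.2.2⟩
        invFun := fun y => ⟨y.1, fun h => hx0 (congrArg Prod.fst h), y.2⟩
        left_inv := fun y => rfl
        right_inv := fun y => rfl }
  · have hMo : Odd M := ho.pow
    by_cases ha : a = 0
    · rw [if_pos ha]
      simp only [ha, ne_eq, not_true_eq_false, iff_false]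
      exact Nat.not_odd_iff_even.2 (hMo.add_odd odd_one)
    · rw [if_neg ha, add_zero]
      exact ⟨fun _ => ha, fun _ => hMo⟩

section Tor

variable {U U' : Type v} [AddCommGroup U] [Module F U] [AddCommGroup U'] [Module F U']
  [FiniteDimensional F U] [FiniteDimensional F U']

/-- the torus of a pair in duality -/
theorem exists_tor [Fintype F] [Nontrivial U] (ho : Odd (Fintype.card F))
    (p : U →ₗ[F] U' →ₗ[F] F) (h1 : ∀ x, (∀ y, p x y = 0) → x = 0)
    (h2 : ∀ y, (∀ x, p x y = 0) → y = 0) (s₁ : Module.End F U) (s₂ : Module.End F U')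
    (hps : ∀ x y, p (s₁ x) (s₂ y) = p x y)
    (hirr : ∀ W : Submodule F U, (∀ w ∈ W, s₁ w ∈ W) → W = ⊥ ∨ W = ⊤) :
    ∃ (w₁ : Module.End F U) (w₂ : Module.End F U'), Even (Nat.card U - 1) ∧ 0 < Nat.card U - 1 ∧
      (∀ x y, p (w₁ x) (w₂ y) = p x y) ∧ (∀ x, w₁ (s₁ x) = s₁ (w₁ x)) ∧
      (∀ y, w₂ (s₂ y) = s₂ (w₂ y)) ∧ LinearMap.det w₁ * LinearMap.det w₂ = 1 ∧
      w₁ ^ (Nat.card U - 1) = 1 ∧ w₂ ^ (Nat.card U - 1) = 1 ∧
      ∀ (j : ℕ) x y, (w₁ ^ j) x = x → (w₂ ^ j) y = y → (x ≠ 0 ∨ y ≠ 0) → Nat.card U - 1 ∣ j := by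
  obtain ⟨K, iK, iA, iF, ⟨D⟩⟩ := exists_fa s₁ hirr
  have iFK : Finite K := Module.finite_of_finite F
  obtain ⟨u₀, hu₀⟩ := exists_ne (0 : U)
  have hcardK : Nat.card U = Nat.card K := (Nat.card_congr (D.eu hu₀).toEquiv).symm
  obtain ⟨w, hw⟩ := IsCyclic.exists_generator (α := Kˣ)
  have how : orderOf w = Nat.card U - 1 := by
    rw [orderOf_eq_card_of_forall_mem_zpowers hw, Nat.card_units, hcardK]
  have hcomm : ∀ (k : K) (x : U), D.φ k (s₁ x) = s₁ (D.φ k x) := by
    intro k x
    have h1 : D.φ k * D.φ D.ζ = D.φ D.ζ * D.φ k := by rw [← map_mul, mul_comm, map_mul]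
    rw [D.hζ] at h1
    exact LinearMap.congr_fun h1 x
  obtain ⟨t', ht', hdet'⟩ := exists_adj p h1 h2 (D.φ ((w⁻¹ : Kˣ) : K))
  set w₁ : Module.End F U := D.φ (w : K) with hw₁
  set wi : Module.End F U := D.φ ((w⁻¹ : Kˣ) : K) with hwi
  have hww : ∀ x, wi (w₁ x) = x := by
    intro x
    rw [hwi, hw₁, ← Module.End.mul_apply, ← map_mul, Units.inv_mul, map_one, Module.End.one_apply]
  have hww2 : w₁ * wi = 1 := by rw [hwi, hw₁, ← map_mul, Units.mul_inv, map_one]
  have hpt : ∀ x y, p (w₁ x) (t' y) = p x y := by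
    intro x y
    rw [ht', hww]
  -- `s` is surjective on `U`
  have hsurj : Function.Surjective s₁ := by
    apply LinearMap.surjective_of_injective
    rw [← LinearMap.ker_eq_bot, LinearMap.ker_eq_bot']
    intro x hx
    apply h1
    intro y
    rw [← hps, hx, map_zero, LinearMap.zero_apply]
  have hcomm' : ∀ y : U', t' (s₂ y) = s₂ (t' y) := by
    intro y
    rw [← sub_eq_zero]
    apply h2
    intro x
    obtain ⟨x, rfl⟩ := hsurj x
    rw [map_sub, ht', hcomm, hps, hps, ht', sub_self]
  have hN0 : 0 < Nat.card U - 1 := by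
    have := Finite.one_lt_card (α := K)
    omega
  have hNe : Even (Nat.card U - 1) := by
    have : Finite U := Module.finite_of_finite F
    exact Nat.Odd.sub_odd (odd_card_module ho U) odd_one
  have hpj : ∀ (j : ℕ) x y, p ((w₁ ^ j) x) ((t' ^ j) y) = p x y := by
    intro j
    induction j with
    | zero => intro x y; rw [pow_zero, pow_zero]; rfl
    | succ j ih =>
      intro x y
      rw [pow_succ, pow_succ, Module.End.mul_apply, Module.End.mul_apply, ih, hpt]
  have hwj : ∀ j : ℕ, w₁ ^ j = D.φ ((w : K) ^ j) := by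
    intro j
    rw [map_pow]
  have hK1 : ∀ j : ℕ, (w : K) ^ j = 1 ↔ Nat.card U - 1 ∣ j := by
    intro j
    rw [← how, orderOf_dvd_iff_pow_eq_one, ← Units.val_pow_eq_pow_val, Units.val_eq_one]
  have ht1 : ∀ j : ℕ, (w : K) ^ j = 1 → t' ^ j = 1 := by
    intro j hj
    ext1 y
    rw [← sub_eq_zero]
    apply h2
    intro x
    have h3 := hpj j x y
    rw [hwj, hj, map_one] at h3
    rw [map_sub, sub_eq_zero]
    exact h3
  refine ⟨w₁, t', hNe, hN0, hpt, hcomm _, hcomm', ?_, ?_, ?_, ?_⟩
  · rw [hdet', ← map_mul, hww2, map_one]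
  · rw [hwj, (hK1 _).2 dvd_rfl, map_one]
  · exact ht1 _ ((hK1 _).2 dvd_rfl)
  · intro j x y hx hy hxy
    rw [hwj] at hx
    by_cases hx0 : x = 0
    · have hy0 : y ≠ 0 := by
        rcases hxy with h | h
        · exact absurd hx0 h
        · exact h
      by_contra hnd
      apply hy0
      apply h2
      intro z
      have hne : (w : K) ^ j - 1 ≠ 0 := fun h => hnd ((hK1 j).1 (sub_eq_zero.1 h))
      have h6 : z = D.φ ((w : K) ^ j - 1) (D.φ ((w : K) ^ j - 1)⁻¹ z) := by
        rw [← Module.End.mul_apply, ← map_mul, mul_inv_cancel₀ hne, map_one]; rfl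
      rw [h6]
      generalize D.φ ((w : K) ^ j - 1)⁻¹ z = z'
      rw [map_sub, LinearMap.sub_apply, map_sub, map_one, Module.End.one_apply,
        LinearMap.sub_apply]
      have h7 := hpj j z' y
      rw [hy, hwj] at h7
      rw [h7, sub_self]
    · have h8 : (w : K) ^ j = 1 := (D.bij x hx0).1 (by
        change D.φ ((w : K) ^ j) x = D.φ 1 x
        rw [hx, map_one]; rfl)
      exact (hK1 j).1 h8

end Tor

section Pair

variable {V : Type v} [AddCommGroup V] [Module F V]

theorem irr_res {s : Module.End F V} {U : Submodule F V} (hU : H951.Irr s U)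
    (W : Submodule F U) (hW : ∀ w ∈ W, res s hU.2.1 w ∈ W) : W = ⊥ ∨ W = ⊤ := by
  have h3 : H951.Inv s (W.map U.subtype) := by
    rintro _ ⟨w, hw, rfl⟩
    exact ⟨res s hU.2.1 w, hW w hw, rfl⟩
  rcases hU.2.2 _ (Submodule.map_subtype_le _ _) h3 with h4 | h4
  · left
    rw [eq_bot_iff]
    intro x hx
    have h5 : (x : V) ∈ W.map U.subtype := ⟨x, hx, rfl⟩
    rw [h4, Submodule.mem_bot] at h5
    exact Subtype.ext h5
  · right
    rw [eq_top_iff]
    intro x _
    have h5 : (x : V) ∈ W.map U.subtype := by rw [h4]; exact x.2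
    obtain ⟨y, hy, hyx⟩ := h5
    have h6 : y = x := Subtype.ext hyx
    rwa [← h6]

theorem glue_pow {X Y : Submodule F V} (h : IsCompl X Y) (a : X →ₗ[F] X) (b : Y →ₗ[F] Y)
    (j : ℕ) (x : X) (y : Y) : ((glue h a b) ^ j) ((x : V) + y) = ((a ^ j) x : V) + (b ^ j) y := by
  induction j generalizing x y with
  | zero => rfl
  | succ j ih =>
    rw [pow_succ, Module.End.mul_apply, glue_add, ih, pow_succ, pow_succ]
    rfl

theorem add_eq_add_of_isCompl {X Y : Submodule F V} (h : IsCompl X Y) {x x' : X} {y y' : Y}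
    (e : (x : V) + y = x' + y') : x = x' ∧ y = y' := by
  have h4 : ((x - x' : X) : V) = ((y' - y : Y) : V) := by
    rw [Submodule.coe_sub, Submodule.coe_sub, sub_eq_sub_iff_add_eq_add, e, add_comm]
  have h5 : ((x - x' : X) : V) ∈ X ⊓ Y := ⟨(x - x').2, by rw [h4]; exact (y' - y).2⟩
  rw [h.inf_eq_bot, Submodule.mem_bot] at h5
  rw [h5] at h4
  exact ⟨sub_eq_zero.1 (Subtype.ext h5), (sub_eq_zero.1 (Subtype.ext h4.symm)).symm⟩

theorem pc_pair [Fintype F] [FiniteDimensional F V] (ho : Odd (Fintype.card F))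
    {s : Module.End F V} {B : LinearMap.BilinForm F V} (hn : Nd B)
    (hsy : Sy B) (hB : Smi B 1 s) {U U' : Submodule F V} (hc : IsCompl U U')
    (hU : H951.Irr s U) (hU' : H951.Inv s U') (h0 : ∀ x ∈ U, ∀ y ∈ U, B x y = 0)
    (h0' : ∀ x ∈ U', ∀ y ∈ U', B x y = 0) : Pc B s := by
  have h2F := two_ne_zero_of_odd ho
  obtain ⟨p, hp⟩ : ∃ p : U →ₗ[F] U' →ₗ[F] F, ∀ (x : U) (y : U'), p x y = B x y :=
    ⟨B.domRestrict₁₂ U U', fun x y => rfl⟩
  have h1 : ∀ x, (∀ y, p x y = 0) → x = 0 := by
    intro x hx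
    apply Subtype.ext
    apply hn
    intro v
    obtain ⟨y, y', rfl⟩ := exists_add hc v
    rw [map_add, h0 _ x.2 _ y.2, zero_add, ← hp]
    exact hx y'
  have h2 : ∀ y, (∀ x, p x y = 0) → y = 0 := by
    intro y hy
    apply Subtype.ext
    apply hn
    intro v
    obtain ⟨x, x', rfl⟩ := exists_add hc v
    rw [map_add, h0' _ y.2 _ x'.2, add_zero, hsy, ← hp]
    exact hy x
  have hfr := finrank_eq_of_pairing p h1 h2
  have hfr2 : finrank F V = 2 * finrank F U := by
    have := Submodule.finrank_add_eq_of_isCompl hc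
    omega
  have hBadd : ∀ (x y : U) (x' y' : U'), B ((x : V) + x') ((y : V) + y') = p x y' + p y x' := by
    intro x y x' y'
    rw [hp, hp, map_add, map_add, LinearMap.add_apply, LinearMap.add_apply,
      h0 _ x.2 _ y.2, h0' _ x'.2 _ y'.2, hsy (x' : V) y]
    ring
  have hUi : H951.Inv s U := hU.2.1
  have hUne : Nontrivial U := (Submodule.nontrivial_iff_ne_bot).2 hU.1
  have hps : ∀ x y, p (res s hUi x) (res s hU' y) = p x y := by
    intro x y
    rw [hp, hp, coe_res, coe_res, hB, one_mul]
  refine ⟨⟨finrank F U, hfr2, fun c hc0 => ?_⟩, ?_⟩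
  · refine ⟨glue hc (c • LinearMap.id) LinearMap.id, ?_, ?_, ?_⟩
    · intro u v
      obtain ⟨x, x', rfl⟩ := exists_add hc u
      obtain ⟨y, y', rfl⟩ := exists_add hc v
      rw [glue_add, glue_add, hBadd, hBadd]
      simp only [LinearMap.smul_apply, LinearMap.id_apply, map_smul, smul_eq_mul]
      ring
    · refine commute_glue hc hUi hU' (fun x => ?_) (fun y => rfl)
      rw [LinearMap.smul_apply, LinearMap.smul_apply, map_smul]
      rfl
    · rw [det_glue, LinearMap.det_smul, LinearMap.det_id, LinearMap.det_id, mul_one, mul_one]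
  · obtain ⟨w₁, w₂, hNe, hN0, hpw, hc1, hc2, hdet, hw1, hw2, hsr⟩ :=
      exists_tor ho p h1 h2 (res s hUi) (res s hU') hps (irr_res hU)
    refine ⟨glue hc w₁ w₂, Nat.card U - 1, hNe, hN0, ?_, ?_, ?_, ?_, ?_, ?_⟩
    · intro u v
      obtain ⟨x, x', rfl⟩ := exists_add hc u
      obtain ⟨y, y', rfl⟩ := exists_add hc v
      rw [glue_add, glue_add, hBadd, hBadd, hpw, hpw, one_mul]
    · exact commute_glue hc hUi hU' hc1 hc2
    · rw [det_glue, hdet]
    · ext1 v
      obtain ⟨x, y, rfl⟩ := exists_add hc v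
      rw [glue_pow, hw1, hw2]
      rfl
    · intro v hv j hj
      obtain ⟨x, y, rfl⟩ := exists_add hc v
      rw [glue_pow] at hj
      obtain ⟨h3, h4⟩ := add_eq_add_of_isCompl hc hj
      refine hsr j x y h3 h4 ?_
      by_contra hcon
      push Not at hcon
      apply hv
      rw [hcon.1, hcon.2, Submodule.coe_zero, Submodule.coe_zero, add_zero]
    · intro a
      obtain ⟨m, hm, hm'⟩ := card_pair ho p h1 h2 a
      refine ⟨m, ?_, hm'⟩
      rw [← hm]
      obtain ⟨e, he⟩ : ∃ e : (U × U') ≃ₗ[F] V, ∀ z, e z = (z.1 : V) + z.2 :=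
        ⟨Submodule.prodEquivOfIsCompl U U' hc, fun z => rfl⟩
      have he' : ∀ z : U × U', B (e z) (e z) = 2 * p z.1 z.2 := by
        intro z
        rw [he, hBadd, two_mul]
      apply Nat.card_congr
      exact (e.toEquiv.subtypeEquiv fun z => by
        change (z ≠ 0 ∧ 2 * p z.1 z.2 = a) ↔ (e z ≠ 0 ∧ B (e z) (e z) = a)
        rw [he', Ne, Ne, LinearEquiv.map_eq_zero_iff]).symm

end Pair

end Cfsg.Agent.H204
end

-- part: H204/Piece
section
/-!
# An invariant nondegenerate subspace with a torus (helper204)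

* `exists_piece` : `s ≠ 1` an isometry of odd order `r`, `r ≠ 0` in `F`: an invariant nondegenerate `X ≠ 0` with
  `Pc (B|X) (s|X)`;
* `exists_sim` : if `dim V` is even, for each `c ≠ 0` there is `g` commuting with `s`, multiplying `B` by `c`, with
  `det g = c ^ (dim V / 2)`.
-/

set_option autoImplicit false

namespace Cfsg.Agent.H204

open Module Polynomial

universe u v

variable {F : Type u} [Field F] {V : Type v} [AddCommGroup V] [Module F V]

theorem injective_of_smi {B : LinearMap.BilinForm F V} {s : Module.End F V} (hn : Nd B)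
    (hB : Smi B 1 s) : Function.Injective s := by
  rw [← LinearMap.ker_eq_bot, LinearMap.ker_eq_bot']
  intro x hx
  apply hn
  intro y
  have h := hB x y
  rw [hx, map_zero, LinearMap.zero_apply, one_mul] at h
  exact h.symm

theorem eq_bot_or_of_irr {s : Module.End F V} {U W : Submodule F V} (hU : H951.Irr s U)
    (hW : H951.Inv s W) : U ⊓ W = ⊥ ∨ U ≤ W := by
  rcases hU.2.2 (U ⊓ W) inf_le_left (hU.2.1.inf hW) with h | h
  · exact Or.inl h
  · exact Or.inr (inf_eq_left.1 h)

theorem nd_restrict_of_inf {B : LinearMap.BilinForm F V} (hsy : Sy B) {U : Submodule F V}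
    (h : U ⊓ perp B U = ⊥) : Nd (B.restrict U) := by
  intro x hx
  apply Subtype.ext
  have h1 : (x : V) ∈ U ⊓ perp B U := by
    refine ⟨x.2, mem_perp.2 fun y hy => ?_⟩
    rw [hsy]
    exact hx ⟨y, hy⟩
  rwa [h, Submodule.mem_bot] at h1

theorem perp_fx_cm {B : LinearMap.BilinForm F V} {s : Module.End F V} (hB : Smi B 1 s) {x y : V}
    (hx : x ∈ H951.fx s) (hy : y ∈ H951.cm s) : B x y = 0 := by
  obtain ⟨w, rfl⟩ := H951.mem_cm.1 hy
  rw [map_sub, sub_eq_zero]
  conv_lhs => rw [← H951.mem_fx.1 hx]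
  rw [hB, one_mul]

theorem exists_piece [Fintype F] [FiniteDimensional F V] (ho : Odd (Fintype.card F))
    {B : LinearMap.BilinForm F V} (hn : Nd B) (hsy : Sy B) {s : Module.End F V} (hB : Smi B 1 s)
    {r : ℕ} (hro : Odd r) (hr : (r : F) ≠ 0) (hsr : s ^ r = 1) (hs1 : s ≠ 1) :
    ∃ (X : Submodule F V) (hX : H951.Inv s X), X ≠ ⊥ ∧ IsCompl X (perp B X) ∧
      Pc (B.restrict X) (res s hX) := by
  have hinj := injective_of_smi hn hB
  have hss : s.IsSemisimple := H951.semisimple_of_pow hr hsr
  have hcompl := H951.isCompl_fx_cm hr hsr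
  have hcm : H951.cm s ≠ ⊥ := by
    intro h
    apply hs1
    ext v
    have h1 : s v - v ∈ H951.cm s := H951.mem_cm.2 ⟨v, rfl⟩
    rw [h, Submodule.mem_bot] at h1
    exact sub_eq_zero.1 h1
  by_cases hcase : ∃ U, H951.Irr s U ∧ U ≤ H951.cm s ∧ U ⊓ perp B U = ⊥
  · obtain ⟨U, hU, hUc, hUp⟩ := hcase
    have hnd := nd_restrict_of_inf hsy hUp
    refine ⟨U, hU.2.1, hU.1, isCompl_perp hsy hnd, ?_⟩
    have : Nontrivial U := (Submodule.nontrivial_iff_ne_bot).2 hU.1
    refine pc_irr ho (irr_res hU) (fun x y h => ?_) hnd (hsy.restrict U) (fun x y => hB x y) ?_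
    · exact Subtype.ext (hinj (congrArg Subtype.val h))
    · intro h2
      obtain ⟨x, hx⟩ := exists_ne (0 : U)
      have h3 : s (s x) = x := congrArg Subtype.val (LinearMap.congr_fun h2 x)
      obtain ⟨k, hk⟩ := hro
      have h4 : ∀ k : ℕ, (s ^ (2 * k)) (x : V) = x := by
        intro k
        induction k with
        | zero => rfl
        | succ k ih =>
          rw [mul_add, mul_one, pow_add, Module.End.mul_apply, pow_two, Module.End.mul_apply, h3, ih]
      have h5 : s (x : V) = x := by
        have h6 : (s ^ r) (x : V) = x := by rw [hsr]; rfl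
        rw [hk, pow_succ', Module.End.mul_apply, h4] at h6
        exact h6
      have h7 : (x : V) ∈ H951.fx s ⊓ H951.cm s := ⟨H951.mem_fx.2 h5, hUc x.2⟩
      rw [hcompl.inf_eq_bot, Submodule.mem_bot] at h7
      exact hx (Subtype.ext h7)
  · push Not at hcase
    have hiso : ∀ U, H951.Irr s U → U ≤ H951.cm s → ∀ x ∈ U, ∀ y ∈ U, B x y = 0 := by
      intro U hU hUc x hx y hy
      rcases eq_bot_or_of_irr hU (inv_perp hB hinj hU.2.1) with h | h
      · exact absurd h (hcase U hU hUc)
      · exact mem_perp.1 (h hy) x hx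
    obtain ⟨U, hUc, hU⟩ := H951.exists_irr (x := s) H951.inv_cm hcm
    have hUp : H951.Inv s (perp B U) := inv_perp hB hinj hU.2.1
    obtain ⟨T, hT, -, hT1, hT2⟩ := H951.exists_rel_compl hss hUp H951.inv_top le_top
    have hTne : T ≠ ⊥ := by
      rintro rfl
      rw [sup_bot_eq] at hT2
      apply hU.1
      rw [eq_bot_iff]
      intro x hx
      rw [Submodule.mem_bot]
      apply hn
      intro y
      have hy : y ∈ perp B U := by rw [hT2]; exact Submodule.mem_top
      exact mem_perp.1 hy x hx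
    obtain ⟨U', hU'T, hU'⟩ := H951.exists_irr (x := s) hT hTne
    have hU'p : U' ⊓ perp B U = ⊥ := by
      rw [eq_bot_iff, ← hT1, inf_comm (perp B U)]
      exact inf_le_inf_right _ hU'T
    have hnle : ¬ U' ≤ perp B U := by
      intro h
      apply hU'.1
      rw [← hU'p, inf_eq_left.2 h]
    have hU'c : U' ≤ H951.cm s := by
      rcases eq_bot_or_of_irr hU' (H951.inv_cm (x := s)) with h | h
      · exfalso
        have h1 := H951.inf_fx_sup_inf_cm hr hsr hU'.2.1
        rw [h, sup_bot_eq] at h1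
        apply hnle
        intro y hy
        rw [← h1] at hy
        refine mem_perp.2 fun x hx => ?_
        rw [hsy]
        exact perp_fx_cm hB hy.2 (hUc hx)
      · exact h
    have h0 := hiso U hU hUc
    have h0' := hiso U' hU' hU'c
    have hUle : U ≤ perp B U := fun y hy => mem_perp.2 fun x hx => h0 x hx y hy
    have hUU' : U ⊓ U' = ⊥ := by
      rw [eq_bot_iff, ← hU'p, inf_comm]
      exact inf_le_inf_left _ hUle
    have hpU' : U ⊓ perp B U' = ⊥ := by
      rcases eq_bot_or_of_irr hU (inv_perp hB hinj hU'.2.1) with h | h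
      · exact h
      · exfalso
        apply hnle
        intro y hy
        refine mem_perp.2 fun x hx => ?_
        rw [hsy]
        exact mem_perp.1 (h hx) y hy
    have hX : H951.Inv s (U ⊔ U') := hU.2.1.sup hU'.2.1
    have hXp : (U ⊔ U') ⊓ perp B (U ⊔ U') = ⊥ := by
      rw [eq_bot_iff]
      rintro v ⟨hv1, hv2⟩
      obtain ⟨x, hx, y, hy, rfl⟩ := Submodule.mem_sup.1 hv1
      have hx0 : x ∈ U ⊓ perp B U' := by
        refine ⟨hx, mem_perp.2 fun z hz => ?_⟩
        have h3 := mem_perp.1 hv2 z (Submodule.mem_sup_right hz)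
        rwa [map_add, h0' z hz y hy, add_zero] at h3
      have hy0 : y ∈ U' ⊓ perp B U := by
        refine ⟨hy, mem_perp.2 fun z hz => ?_⟩
        have h3 := mem_perp.1 hv2 z (Submodule.mem_sup_left hz)
        rwa [map_add, h0 z hz x hx, zero_add] at h3
      rw [hpU', Submodule.mem_bot] at hx0
      rw [hU'p, Submodule.mem_bot] at hy0
      rw [hx0, hy0, add_zero]
      exact Submodule.mem_bot F |>.2 rfl
    have hnd := nd_restrict_of_inf hsy hXp
    refine ⟨U ⊔ U', hX, ?_, isCompl_perp hsy hnd, ?_⟩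
    · intro h
      apply hU.1
      rw [eq_bot_iff, ← h]
      exact le_sup_left
    · -- the two subspaces inside `U ⊔ U'`
      set X := U ⊔ U' with hXd
      have hUX : U ≤ X := le_sup_left
      have hU'X : U' ≤ X := le_sup_right
      have hc : IsCompl (U.comap X.subtype) (U'.comap X.subtype) := by
        constructor
        · rw [disjoint_iff, eq_bot_iff]
          rintro v ⟨hv1, hv2⟩
          have h3 : (v : V) ∈ U ⊓ U' := ⟨hv1, hv2⟩
          rw [hUU', Submodule.mem_bot] at h3
          exact (Submodule.mem_bot F).2 (Subtype.ext h3)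
        · rw [codisjoint_iff, eq_top_iff]
          rintro v -
          obtain ⟨x, hx, y, hy, hv⟩ := Submodule.mem_sup.1 (hXd ▸ v.2 : (v : V) ∈ U ⊔ U')
          have h3 : v = ⟨x, hUX hx⟩ + ⟨y, hU'X hy⟩ := Subtype.ext hv.symm
          rw [h3]
          exact Submodule.add_mem_sup hx hy
      refine pc_pair ho hnd (hsy.restrict X) (fun x y => hB x y) hc ⟨?_, ?_, ?_⟩ ?_ ?_ ?_
      · intro h
        apply hU.1
        rw [eq_bot_iff]
        intro x hx
        have h3 : (⟨x, hUX hx⟩ : X) ∈ U.comap X.subtype := hx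
        rw [h, Submodule.mem_bot] at h3
        exact (Submodule.mem_bot F).2 (congrArg Subtype.val h3)
      · intro x hx
        exact hU.2.1 _ hx
      · intro W hW hWi
        have h3 : H951.Inv s (W.map X.subtype) := by
          rintro _ ⟨w, hw, rfl⟩
          exact ⟨res s hX w, hWi w hw, rfl⟩
        have h4 : W.map X.subtype ≤ U := by
          rintro _ ⟨w, hw, rfl⟩
          exact hW hw
        rcases hU.2.2 _ h4 h3 with h5 | h5
        · left
          rw [eq_bot_iff]
          intro x hx
          have h6 : (x : V) ∈ W.map X.subtype := ⟨x, hx, rfl⟩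
          rw [h5, Submodule.mem_bot] at h6
          exact (Submodule.mem_bot F).2 (Subtype.ext h6)
        · right
          apply le_antisymm hW
          intro x hx
          have h6 : (x : V) ∈ W.map X.subtype := by rw [h5]; exact hx
          obtain ⟨y, hy, hyx⟩ := h6
          have h7 : y = x := Subtype.ext hyx
          rwa [← h7]
      · intro x hx
        exact hU'.2.1 _ hx
      · intro x hx y hy
        exact h0 _ hx _ hy
      · intro x hx y hy
        exact h0' _ hx _ hy

end Cfsg.Agent.H204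
end

-- part: H204/Plane
section
/-!
# Similarities commuting with an isometry of odd order (helper204)

* `exists_plane` : a nondegenerate plane with similarities of every multiplier;
* `exists_sim` : if `dim V = 2 m`, `s` an isometry of odd order prime to the characteristic: for each `c ≠ 0` there is
  `g` commuting with `s`, multiplying `B` by `c`, with `det g = c ^ m`.
-/

set_option autoImplicit false

namespace Cfsg.Agent.H204

open Module Polynomial

universe u v

variable {F : Type u} [Field F] {V : Type v} [AddCommGroup V] [Module F V]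

theorem exists_self_ne [Fintype F] (ho : Odd (Fintype.card F)) {B : LinearMap.BilinForm F V}
    (hn : Nd B) (hsy : Sy B) [Nontrivial V] : ∃ v, B v v ≠ 0 := by
  by_contra hcon
  push Not at hcon
  obtain ⟨x, hx⟩ := exists_ne (0 : V)
  apply hx
  apply hn
  intro y
  have h := hcon (x + y)
  rw [map_add, map_add, LinearMap.add_apply, LinearMap.add_apply, hcon x, hcon y, hsy y x, zero_add,
    add_zero, ← two_mul] at h
  exact (mul_eq_zero.1 h).resolve_left (two_ne_zero_of_odd ho)

/-- the binary form `α x² + β y²` represents everything -/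
theorem exists_repr [Fintype F] (ho : Odd (Fintype.card F)) {α β : F} (hα : α ≠ 0) (hβ : β ≠ 0)
    (c : F) : ∃ x y : F, α * x ^ 2 + β * y ^ 2 = c := by
  have hd : ∀ a b : F, a ≠ 0 → (C a * X ^ 2 + C b : F[X]).degree = 2 := by
    intro a b ha
    have h1 := Polynomial.degree_quadratic (a := a) (b := 0) (c := b) ha
    rwa [map_zero, zero_mul, add_zero] at h1
  obtain ⟨x, y, h⟩ := FiniteField.exists_root_sum_quadratic (hd α 0 hα) (hd β (-c) hβ)
    (by have := ho; rwa [← Nat.odd_iff])
  refine ⟨x, y, ?_⟩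
  simp only [map_zero, add_zero, eval_mul, eval_C, eval_pow, eval_X, eval_add] at h
  linear_combination h

theorem exists_plane [Fintype F] [FiniteDimensional F V] (ho : Odd (Fintype.card F))
    {B : LinearMap.BilinForm F V} (hn : Nd B) (hsy : Sy B) (hd : 2 ≤ finrank F V) :
    ∃ X : Submodule F V, X ≠ ⊥ ∧ IsCompl X (perp B X) ∧ finrank F X = 2 ∧
      ∀ c : F, c ≠ 0 → ∃ g : X →ₗ[F] X, Smi (B.restrict X) c g ∧ LinearMap.det g = c := by
  have hnt : Nontrivial V := Module.nontrivial_of_finrank_pos (R := F) (by omega)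
  obtain ⟨e, he⟩ := exists_self_ne ho hn hsy
  have hc1 : IsCompl (Submodule.span F {e}) (perp B (Submodule.span F {e})) :=
    LinearMap.BilinForm.isCompl_span_singleton_orthogonal he
  have hne : e ≠ 0 := by rintro rfl; rw [map_zero] at he; exact he rfl
  have hf1 := Submodule.finrank_add_eq_of_isCompl hc1
  rw [finrank_span_singleton hne] at hf1
  have hnt' : Nontrivial (perp B (Submodule.span F {e})) :=
    Module.nontrivial_of_finrank_pos (R := F) (by omega)
  obtain ⟨⟨f, hf⟩, hff⟩ := exists_self_ne ho (nd_restrict_perp hsy hn hc1.sup_eq_top)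
    (hsy.restrict _)
  replace hff : B f f ≠ 0 := hff
  have hef : B e f = 0 := mem_perp.1 hf e (Submodule.mem_span_singleton_self e)
  have hfe : B f e = 0 := by rw [hsy]; exact hef
  -- coordinates
  have hli : LinearIndependent F ![e, f] := by
    rw [LinearIndependent.pair_iff]
    intro a b h
    have h1 : B e (a • e + b • f) = 0 := by rw [h, map_zero]
    have h2 : B f (a • e + b • f) = 0 := by rw [h, map_zero]
    rw [map_add, map_smul, map_smul, hef, smul_zero, add_zero, smul_eq_mul] at h1
    rw [map_add, map_smul, map_smul, hfe, smul_zero, zero_add, smul_eq_mul] at h2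
    exact ⟨(mul_eq_zero.1 h1).resolve_right he, (mul_eq_zero.1 h2).resolve_right hff⟩
  set X := Submodule.span F (Set.range ![e, f]) with hX
  let b : Basis (Fin 2) F X := Basis.span hli
  have hb0 : ((b 0 : X) : V) = e := by rw [Basis.span_apply]; rfl
  have hb1 : ((b 1 : X) : V) = f := by rw [Basis.span_apply]; rfl
  have hrep : ∀ v : X, ∃ x y : F, v = x • b 0 + y • b 1 := by
    intro v
    refine ⟨b.repr v 0, b.repr v 1, ?_⟩
    conv_lhs => rw [← b.sum_repr v]
    rw [Fin.sum_univ_two]
  have hB00 : (B.restrict X) (b 0) (b 0) = B e e := by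
    change B (b 0 : V) (b 0 : V) = _
    rw [hb0]
  have hB01 : (B.restrict X) (b 0) (b 1) = 0 := by
    change B (b 0 : V) (b 1 : V) = _
    rw [hb0, hb1, hef]
  have hB10 : (B.restrict X) (b 1) (b 0) = 0 := by
    change B (b 1 : V) (b 0 : V) = _
    rw [hb0, hb1, hfe]
  have hB11 : (B.restrict X) (b 1) (b 1) = B f f := by
    change B (b 1 : V) (b 1 : V) = _
    rw [hb1]
  have hnd : Nd (B.restrict X) := by
    intro v hv
    obtain ⟨x, y, rfl⟩ := hrep v
    have h1 := hv (b 0)
    have h2 := hv (b 1)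
    rw [map_add, map_smul, map_smul, LinearMap.add_apply, LinearMap.smul_apply,
      LinearMap.smul_apply, hB00, hB10, smul_zero, add_zero, smul_eq_mul] at h1
    rw [map_add, map_smul, map_smul, LinearMap.add_apply, LinearMap.smul_apply,
      LinearMap.smul_apply, hB01, hB11, smul_zero, zero_add, smul_eq_mul] at h2
    rw [(mul_eq_zero.1 h1).resolve_right he, (mul_eq_zero.1 h2).resolve_right hff, zero_smul,
      zero_smul, add_zero]
  refine ⟨X, ?_, isCompl_perp hsy hnd, ?_, fun c hc => ?_⟩
  · intro h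
    have h1 : e ∈ X := Submodule.subset_span ⟨0, rfl⟩
    rw [h, Submodule.mem_bot] at h1
    exact hne h1
  · rw [Module.finrank_eq_card_basis b, Fintype.card_fin]
  · obtain ⟨x, y, hxy⟩ := exists_repr ho he hff (c * B e e)
    have hMB : ∀ u v u' v' : F, (B.restrict X) (u • b 0 + v • b 1) (u' • b 0 + v' • b 1) =
        u * u' * B e e + v * v' * B f f := by
      intro u v u' v'
      simp only [map_add, map_smul, LinearMap.add_apply, LinearMap.smul_apply, smul_eq_mul, hB00,
        hB01, hB10, hB11]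
      ring
    set g : X →ₗ[F] X := Matrix.toLin b b !![x, -(B f f / B e e) * y; y, x] with hg
    have hg0 : g (b 0) = x • b 0 + y • b 1 := by
      rw [hg, Matrix.toLin_self, Fin.sum_univ_two]
      rfl
    have hg1 : g (b 1) = (-(B f f / B e e) * y) • b 0 + x • b 1 := by
      rw [hg, Matrix.toLin_self, Fin.sum_univ_two]
      rfl
    have hgg : ∀ u v : F, g (u • b 0 + v • b 1) =
        (u * x - v * (B f f / B e e) * y) • b 0 + (u * y + v * x) • b 1 := by
      intro u v
      rw [map_add, map_smul, map_smul, hg0, hg1]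
      module
    refine ⟨g, ?_, ?_⟩
    · intro u v
      obtain ⟨u₀, u₁, rfl⟩ := hrep u
      obtain ⟨v₀, v₁, rfl⟩ := hrep v
      rw [hgg, hgg, hMB, hMB]
      field_simp
      linear_combination (u₀ * v₀ * B e e + u₁ * v₁ * B f f) * hxy
    · rw [hg, LinearMap.det_toLin, Matrix.det_fin_two_of]
      field_simp
      linear_combination hxy

theorem res_pow {s : Module.End F V} {X : Submodule F V} (h : H951.Inv s X) (n : ℕ) (x : X) :
    (((res s h) ^ n) x : V) = (s ^ n) (x : V) := by
  induction n generalizing x with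
  | zero => rfl
  | succ n ih =>
    rw [pow_succ, Module.End.mul_apply, ih, coe_res, pow_succ, Module.End.mul_apply]

/-- similarities commuting with `s`, of every multiplier, "proper" -/
theorem exists_sim [Fintype F] (ho : Odd (Fintype.card F)) {r : ℕ} (hro : Odd r)
    (hr : (r : F) ≠ 0) {c : F} (hc : c ≠ 0) (m : ℕ) : ∀ (V : Type v) [AddCommGroup V] [Module F V]
    [FiniteDimensional F V] (B : LinearMap.BilinForm F V) (s : Module.End F V), Nd B → Sy B →
    Smi B 1 s → s ^ r = 1 → finrank F V = 2 * m →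
    ∃ g : Module.End F V, Smi B c g ∧ (∀ x, g (s x) = s (g x)) ∧ LinearMap.det g = c ^ m := by
  induction m using Nat.strong_induction_on with
  | _ m ih =>
    intro V _ _ _ B s hn hsy hB hsr hfr
    rcases Nat.eq_zero_or_pos m with rfl | hm
    · have : Subsingleton V := by
        rw [← finrank_zero_iff (R := F)]
        omega
      refine ⟨LinearMap.id, fun u v => ?_, fun x => rfl, by rw [LinearMap.det_id, pow_zero]⟩
      rw [Subsingleton.elim u 0, map_zero, map_zero, LinearMap.zero_apply, LinearMap.zero_apply,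
        mul_zero]
    · have hinj := injective_of_smi hn hB
      -- a piece
      obtain ⟨X, hX, hXne, hXc, d, hXd, gX, hg1, hg2, hg3⟩ : ∃ (X : Submodule F V)
          (hX : H951.Inv s X), X ≠ ⊥ ∧ IsCompl X (perp B X) ∧ ∃ d, finrank F X = 2 * d ∧
          ∃ g : X →ₗ[F] X, Smi (B.restrict X) c g ∧ (∀ x, g (res s hX x) = res s hX (g x)) ∧
          LinearMap.det g = c ^ d := by
        by_cases hs1 : s = 1
        · obtain ⟨X, h1, h2, h3, h4⟩ := exists_plane ho hn hsy (by omega)
          obtain ⟨g, h5, h6⟩ := h4 c hc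
          have hX : H951.Inv s X := fun x hx => by rw [hs1]; exact hx
          have hres : ∀ x, res s hX x = x := fun x => Subtype.ext (by rw [coe_res, hs1]; rfl)
          exact ⟨X, hX, h1, h2, 1, h3, g, h5, fun x => by rw [hres, hres], by rw [h6, pow_one]⟩
        · obtain ⟨X, hX, h1, h2, h3⟩ := exists_piece ho hn hsy hB hro hr hsr hs1
          obtain ⟨d, h4, h5⟩ := h3.sim
          exact ⟨X, hX, h1, h2, d, h4, h5 c hc⟩
      have hY : H951.Inv s (perp B X) := inv_perp hB hinj hX
      have hfY := Submodule.finrank_add_eq_of_isCompl hXc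
      have hX0 : finrank F X ≠ 0 := fun h => hXne (Submodule.finrank_eq_zero.1 h)
      obtain ⟨gY, h1, h2, h3⟩ := ih (m - d) (by omega) (perp B X) (B.restrict (perp B X))
        (res s hY) (nd_restrict_perp hsy hn hXc.sup_eq_top) (hsy.restrict _) (fun x y => hB x y)
        (by
          ext1 x
          apply Subtype.ext
          rw [res_pow, hsr]; rfl) (by omega)
      refine ⟨glue hXc gX gY, smi_glue hsy hXc hg1 h1, commute_glue hXc hX hY hg2 h2, ?_⟩
      rw [det_glue, hg3, h3, ← pow_add]
      congr 1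
      omega

end Cfsg.Agent.H204
end

-- part: H204/TorSign
section
/-!
# An isometry of spinor sign `-1` commuting with an isometry of odd order (helper204)

* `sign_of_semireg` : sign of a permutation all of whose non-trivial cycles have the same even length;
* `exists_odd_torus` : `s ≠ 1` an isometry of odd order prime to the characteristic: an isometry `t` commuting
  with `s`, `det t = 1`, acting on each `{v | B v v = a}`, `a ≠ 0`, as an odd permutation.
-/

set_option autoImplicit false

namespace Cfsg.Agent.H204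

open Module Polynomial

universe u v

theorem sign_of_semireg {α : Type*} [Fintype α] [DecidableEq α] (σ : Equiv.Perm α) {N : ℕ}
    (hN : Even N) (hpos : 0 < N) (h1 : σ ^ N = 1)
    (h2 : ∀ x, σ x ≠ x → ∀ j : ℕ, (σ ^ j) x = x → N ∣ j) {k : ℕ}
    (hk : (Finset.univ.filter fun x => σ x ≠ x).card = N * k) :
    Equiv.Perm.sign σ = (-1) ^ k := by
  have h3 : σ.cycleType = Multiset.replicate σ.cycleType.card N := by
    rw [Multiset.eq_replicate_card]
    intro n hn
    obtain ⟨c, τ, hσ, hd, hc, hcn⟩ := Equiv.Perm.mem_cycleType_iff.1 hn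
    obtain ⟨x, hx, -⟩ := id hc
    have hpow : ∀ j : ℕ, (σ ^ j) x = (c ^ j) x := by
      intro j
      have hτ : τ x = x := (hd x).resolve_left hx
      have hτj : (τ ^ j) x = x := by
        induction j with
        | zero => rfl
        | succ j ih => rw [pow_succ, Equiv.Perm.mul_apply, hτ, ih]
      rw [hσ, hd.commute.mul_pow, Equiv.Perm.mul_apply, hτj]
    have ho : orderOf c = n := by rw [hc.orderOf, hcn]
    apply Nat.dvd_antisymm
    · rw [← ho, orderOf_dvd_iff_pow_eq_one, hc.pow_eq_one_iff' hx, ← hpow, h1]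
      rfl
    · apply h2 x
      · have := hpow 1
        rw [pow_one, pow_one] at this
        rwa [this]
      · rw [hpow, ← ho, pow_orderOf_eq_one]
        rfl
  rw [Equiv.Perm.sign_of_cycleType_eq_replicate hpos h3, if_neg (Nat.not_odd_iff_even.2 hN)]
  congr 1
  have h4 : Fintype.card (Function.fixedPoints σ) = (Finset.univ.filter fun x => σ x = x).card := by
    rw [Fintype.card_subtype]
    rfl
  have h5 := Finset.card_filter_add_card_filter_not (s := (Finset.univ : Finset α))
    (fun x => σ x = x)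
  rw [Finset.card_univ] at h5
  have h6 : Fintype.card α - Fintype.card (Function.fixedPoints σ) = N * k := by
    rw [h4, ← hk]
    change _ = (Finset.univ.filter fun x => ¬ σ x = x).card
    omega
  rw [h6, Nat.mul_div_cancel_left _ hpos]

variable {F : Type u} [Field F] {V : Type v} [AddCommGroup V] [Module F V]

theorem even_card_level [Fintype F] [Finite V] (ho : Odd (Fintype.card F))
    (B : LinearMap.BilinForm F V) {a : F} (ha : a ≠ 0) : Even (Nat.card {v : V // B v v = a}) := by
  classical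
  have := Fintype.ofFinite {v : V // B v v = a}
  let τ : Function.End {v : V // B v v = a} := fun v => ⟨-v.1, by
    rw [map_neg, map_neg, LinearMap.neg_apply, neg_neg]; exact v.2⟩
  have hτ : τ ^ 2 ^ 1 = 1 := by
    rw [pow_one, pow_two]
    funext v
    exact Subtype.ext (neg_neg v.1)
  have h1 := Equiv.Perm.card_fixedPoints_modEq (p := 2) hτ
  have h2 : Fintype.card (Function.fixedPoints τ) = 0 := by
    rw [Fintype.card_eq_zero_iff]
    refine ⟨fun v => ?_⟩
    obtain ⟨⟨v, hv⟩, hf⟩ := v
    have h3 : -v = v := congrArg Subtype.val hf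
    have h4 : (2 : F) • v = 0 := by
      rw [two_smul]
      nth_rewrite 1 [← h3]
      exact neg_add_cancel v
    have h5 : v = 0 := (smul_eq_zero.1 h4).resolve_left (two_ne_zero_of_odd ho)
    apply ha
    rw [← hv, h5, map_zero]
  rw [h2] at h1
  rw [Nat.card_eq_fintype_card]
  exact even_iff_two_dvd.2 (Nat.modEq_zero_iff_dvd.1 h1)

theorem odd_sum {ι : Type*} (s : Finset ι) (f : ι → ℕ) (p : ι → Prop) [DecidablePred p]
    (h : ∀ i ∈ s, (Odd (f i) ↔ p i)) : (Odd (∑ i ∈ s, f i) ↔ Odd (s.filter p).card) := by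
  classical
  induction s using Finset.induction_on with
  | empty => simp
  | insert a s ha ih =>
    have h1 := ih fun i hi => h i (Finset.mem_insert_of_mem hi)
    have h2 := h a (Finset.mem_insert_self a s)
    rw [Finset.sum_insert ha, Finset.filter_insert, Nat.odd_add]
    split_ifs with hp
    · rw [Finset.card_insert_of_notMem (fun hm => ha (Finset.mem_filter.1 hm).1), Nat.odd_add_one,
        ← h1, ← Nat.not_odd_iff_even]
      have := h2.2 hp
      tauto
    · rw [← h1, ← Nat.not_odd_iff_even]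
      tauto

/-- An isometry commuting with `s` which is an odd permutation of the quadrics. -/
theorem exists_odd_torus [Fintype F] [FiniteDimensional F V] (ho : Odd (Fintype.card F))
    {B : LinearMap.BilinForm F V} (hn : Nd B) (hsy : Sy B) {s : Module.End F V} (hB : Smi B 1 s)
    {r : ℕ} (hro : Odd r) (hr : (r : F) ≠ 0) (hsr : s ^ r = 1) (hs1 : s ≠ 1) :
    ∃ t : Module.End F V, Smi B 1 t ∧ (∀ x, t (s x) = s (t x)) ∧ LinearMap.det t = 1 ∧
      ∀ a : F, a ≠ 0 → ∀ [Fintype {v : V // B v v = a}] [DecidableEq {v : V // B v v = a}]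
        (σ : Equiv.Perm {v : V // B v v = a}), (∀ v, (σ v : V) = t v) →
        Equiv.Perm.sign σ = -1 := by
  classical
  have hVf : Finite V := Module.finite_of_finite F
  obtain ⟨X, hX, hXne, hXc, hP⟩ := exists_piece ho hn hsy hB hro hr hsr hs1
  obtain ⟨tX, N, hNe, hNpos, h1, h2, h3, h4, h5, h6⟩ := hP.tor
  have hinj := injective_of_smi hn hB
  have hY : H951.Inv s (perp B X) := inv_perp hB hinj hX
  refine ⟨glue hXc tX LinearMap.id, smi_glue hsy hXc h1 (fun u v => (one_mul _).symm),
    commute_glue hXc hX hY h2 (fun _ => rfl), by rw [det_glue, h3, LinearMap.det_id, one_mul], ?_⟩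
  intro a ha iFt iDe σ hσ
  set t := glue hXc tX LinearMap.id with ht
  have hσj : ∀ (j : ℕ) v, ((σ ^ j) v : V) = (t ^ j) v := by
    intro j
    induction j with
    | zero => intro v; rfl
    | succ j ih =>
      intro v
      rw [pow_succ, Equiv.Perm.mul_apply, ih, hσ, pow_succ, Module.End.mul_apply]
  have hN1 : N ≠ 1 := by
    rintro rfl
    exact absurd hNe (by decide)
  have hid : ∀ (j : ℕ) (y : perp B X), ((LinearMap.id : Module.End F (perp B X)) ^ j) y = y := by
    intro j y
    have : (LinearMap.id : Module.End F (perp B X)) ^ j = 1 := one_pow j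
    rw [this]; rfl
  have htj : ∀ (j : ℕ) (x : X) (y : perp B X), (t ^ j) ((x : V) + y) = ((tX ^ j) x : V) + y := by
    intro j x y
    rw [ht, glue_pow, hid]
  -- fixed vectors
  have hfix : ∀ (j : ℕ) (x : X) (y : perp B X), (t ^ j) ((x : V) + y) = (x : V) + y →
      (tX ^ j) x = x := by
    intro j x y h
    rw [htj] at h
    exact (add_eq_add_of_isCompl hXc h).1
  have hcard : ∃ k, (Finset.univ.filter fun v => σ v ≠ v).card = N * k ∧ Odd k := by
    choose m hm hm' using h6
    have := Fintype.ofFinite (perp B X)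
    refine ⟨∑ y : perp B X, m (a - B y y), ?_, ?_⟩
    · have e : {v // σ v ≠ v} ≃ Σ y : perp B X, {x : X // x ≠ 0 ∧ (B.restrict X) x x = a - B y y} := by
        let e0 := Submodule.prodEquivOfIsCompl X (perp B X) hXc
        have he0 : ∀ x y, e0 (x, y) = (x : V) + y := fun x y => rfl
        have hB0 : ∀ (x : X) (y : perp B X), B ((x : V) + y) ((x : V) + y) = B x x + B y y := by
          intro x y
          have h7 : B x y = 0 := mem_perp.1 y.2 _ x.2
          have h8 : B y x = 0 := by rw [hsy]; exact h7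
          rw [map_add, map_add, LinearMap.add_apply, LinearMap.add_apply, h7, h8]
          ring
        refine
          { toFun := fun v => ⟨(e0.symm v.1.1).2, (e0.symm v.1.1).1, ?_, ?_⟩
            invFun := fun z => ⟨⟨e0 (z.2.1, z.1), ?_⟩, ?_⟩
            left_inv := fun v => ?_
            right_inv := fun z => ?_ }
        · obtain ⟨⟨v, hv⟩, hσv⟩ := v
          obtain ⟨⟨x, y⟩, rfl⟩ := e0.surjective v
          simp only [LinearEquiv.symm_apply_apply]
          rintro rfl
          apply hσv
          apply Subtype.ext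
          rw [hσ]
          change t (e0 (0, y)) = e0 (0, y)
          have h7 := htj 1 0 y
          rw [pow_one, pow_one, map_zero] at h7
          exact h7
        · obtain ⟨⟨v, hv⟩, hσv⟩ := v
          obtain ⟨⟨x, y⟩, rfl⟩ := e0.surjective v
          simp only [LinearEquiv.symm_apply_apply]
          rw [he0, hB0] at hv
          change B x x = _
          rw [← hv]; ring
        · obtain ⟨y, x, hx, hxy⟩ := z
          change B (e0 (x, y)) (e0 (x, y)) = a
          rw [he0, hB0]
          replace hxy : B x x = a - B y y := hxy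
          rw [hxy]; ring
        · obtain ⟨y, x, hx, hxy⟩ := z
          intro h
          have h7 := congrArg Subtype.val h
          rw [hσ] at h7
          have h8 : (t ^ 1) ((x : V) + y) = (x : V) + y := by rw [pow_one]; exact h7
          have h9 := h5 x hx 1 (hfix 1 x y h8)
          exact hN1 (Nat.dvd_one.1 h9)
        · apply Subtype.ext
          apply Subtype.ext
          exact e0.apply_symm_apply _
        · obtain ⟨y, x, hx, hxy⟩ := z
          have h7 : e0.symm (e0 (x, y)) = (x, y) := e0.symm_apply_apply _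
          exact Sigma.subtype_ext (congrArg Prod.snd h7) (congrArg Prod.fst h7)
      rw [← Fintype.card_subtype, ← Nat.card_eq_fintype_card, Nat.card_congr e, Nat.card_sigma,
        Finset.mul_sum]
      exact Finset.sum_congr rfl fun y _ => hm _
    · rw [odd_sum _ _ (fun y : perp B X => B y y ≠ a) (fun y _ => by
        rw [hm' (a - B y y), Ne, sub_eq_zero, eq_comm])]
      have h7 := even_card_level (V := perp B X) ho (B.restrict (perp B X)) ha
      have h8 := odd_card_module ho (perp B X)
      have h9 := Finset.card_filter_add_card_filter_not (s := (Finset.univ : Finset (perp B X)))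
        (fun y => B y y = a)
      rw [Finset.card_univ, ← Nat.card_eq_fintype_card] at h9
      have h10 : Nat.card {v : perp B X // (B.restrict (perp B X)) v v = a} =
          (Finset.univ.filter fun y : perp B X => B y y = a).card := by
        rw [Nat.card_eq_fintype_card, Fintype.card_subtype]
        rfl
      rw [h10] at h7
      rw [← h9] at h8
      exact (Nat.odd_add'.1 h8).2 h7
  obtain ⟨k, hk, hko⟩ := hcard
  rw [sign_of_semireg σ hNe hNpos ?_ ?_ hk, hko.neg_one_pow]
  · ext v
    rw [hσj]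
    obtain ⟨x, y, hxy⟩ := exists_add hXc (v : V)
    rw [← hxy, htj, h4]
    exact hxy
  · intro v hv j hj
    obtain ⟨x, y, hxy⟩ := exists_add hXc (v : V)
    have hx : x ≠ 0 := by
      rintro rfl
      apply hv
      apply Subtype.ext
      rw [hσ, ← hxy]
      have h7 := htj 1 0 y
      rw [pow_one, pow_one, map_zero] at h7
      exact h7
    refine h5 x hx j (hfix j x y ?_)
    rw [hxy, ← hσj, hj]

end Cfsg.Agent.H204
end
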